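import Cfsg.Agent.Lib.H1.Coprime2
import Mathlib.GroupTheory.SemidirectProduct

/-!
Transport between an action of `A` on `G` by automorphisms and the semidirect product.
-/

set_option autoImplicit false

open Subgroup

namespace H55.ActSemi

universe u v

variable (A : Type v) (G : Type u) [Group A] [Group G] [MulDistribMulAction A G]

/-- the semidirect product `G ⋊ A` -/
abbrev SD := G ⋊[MulDistribMulAction.toMulAut A G] A

/-- the normal factor -/
def kk : Subgroup (SD A G) := (SemidirectProduct.inl : G →* SD A G).range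

/-- the complement -/
def aa : Subgroup (SD A G) := (SemidirectProduct.inr : A →* SD A G).range

instance normal_kk : (kk A G).Normal := by
  rw [kk, SemidirectProduct.range_inl_eq_ker_rightHom]
  infer_instance

theorem sup_eq_top : kk A G ⊔ aa A G = ⊤ := by
  rw [eq_top_iff]
  intro x _
  rw [← SemidirectProduct.inl_left_mul_inr_right x]
  exact mul_mem (mem_sup_left ⟨_, rfl⟩) (mem_sup_right ⟨_, rfl⟩)

noncomputable def equivK : G ≃* kk A G :=
  MonoidHom.ofInjective (f := (SemidirectProduct.inl : G →* SD A G)) SemidirectProduct.inl_injective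

theorem card_kk : Nat.card (kk A G) = Nat.card G :=
  Nat.card_congr (equivK A G).symm.toEquiv

theorem card_aa : Nat.card (aa A G) = Nat.card A :=
  Nat.card_congr (MonoidHom.ofInjective (f := (SemidirectProduct.inr : A →* SD A G))
    SemidirectProduct.inr_injective).symm.toEquiv

variable {A G}

theorem conj_inl (a : A) (x : G) :
    (SemidirectProduct.inr a : SD A G) * SemidirectProduct.inl x * (SemidirectProduct.inr a)⁻¹ =
      SemidirectProduct.inl (a • x) := by
  rw [← map_inv, ← SemidirectProduct.inl_aut]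
  rfl

theorem le_normalizer_iff {X : Subgroup G} :
    aa A G ≤ normalizer ((X.map (SemidirectProduct.inl : G →* SD A G) : Subgroup (SD A G)) :
      Set (SD A G)) ↔ ∀ a : A, ∀ x ∈ X, a • x ∈ X := by
  constructor
  · intro h a x hx
    have h1 := h ⟨a, rfl⟩
    rw [Subgroup.mem_normalizer_iff] at h1
    have h2 := (h1 (SemidirectProduct.inl x)).mp ⟨x, hx, rfl⟩
    rw [conj_inl] at h2
    obtain ⟨y, hy, hyx⟩ := h2
    rw [← SemidirectProduct.inl_injective hyx]
    exact hy
  · intro h
    apply H1.Coprime.le_normalizer_of_conj_mem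
    rintro _ ⟨a, rfl⟩ _ ⟨x, hx, rfl⟩
    rw [conj_inl]
    exact ⟨_, h a x hx, rfl⟩

theorem normal_iff {X : Subgroup G} :
    (X.map (SemidirectProduct.inl : G →* SD A G)).Normal ↔
      X.Normal ∧ ∀ a : A, ∀ x ∈ X, a • x ∈ X := by
  constructor
  · intro h
    refine ⟨⟨fun x hx g => ?_⟩, ?_⟩
    · have h1 := h.conj_mem (SemidirectProduct.inl x) ⟨x, hx, rfl⟩ (SemidirectProduct.inl g)
      rw [← map_inv, ← map_mul, ← map_mul] at h1
      obtain ⟨y, hy, hyx⟩ := h1
      rw [← SemidirectProduct.inl_injective hyx]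
      exact hy
    · rw [← le_normalizer_iff]
      exact Subgroup.le_normalizer_of_normal
  · rintro ⟨h1, h2⟩
    rw [← Subgroup.normalizer_eq_top_iff, eq_top_iff, ← sup_eq_top]
    refine sup_le ?_ (le_normalizer_iff.mpr h2)
    apply H1.Coprime.le_normalizer_of_conj_mem
    rintro _ ⟨g, rfl⟩ _ ⟨x, hx, rfl⟩
    rw [← map_inv, ← map_mul, ← map_mul]
    exact ⟨_, h1.conj_mem x hx g, rfl⟩

theorem map_comap_eq {X : Subgroup (SD A G)} (h : X ≤ kk A G) :
    (X.comap SemidirectProduct.inl).map (SemidirectProduct.inl : G →* SD A G) = X := by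
  rw [Subgroup.map_comap_eq]
  exact inf_eq_right.mpr h

theorem map_top : (⊤ : Subgroup G).map (SemidirectProduct.inl : G →* SD A G) = kk A G :=
  (MonoidHom.range_eq_map _).symm

instance [Finite A] [Finite G] : Finite (SD A G) :=
  Finite.of_equiv (G × A) (SemidirectProduct.equivProd (N := G) (G := A)).symm

end H55.ActSemi
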