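import Cfsg.Prelude.Def_BaumannBlocks
import Cfsg.Agent.Lib.H55.ProdCard

/-! The Chermak–Delgado lattice of a finite group. -/

set_option autoImplicit false

namespace H55.CD

open Subgroup H55.ProdCard
open scoped Pointwise

variable {P : Type*} [Group P]

/-- Chermak–Delgado measure -/
noncomputable def mu (H : Subgroup P) : ℕ :=
  Nat.card H * Nat.card (Subgroup.centralizer (H : Set P))

/-- member of the Chermak–Delgado lattice -/
def Mem (H : Subgroup P) : Prop := ∀ K : Subgroup P, mu K ≤ mu H

theorem mu_pos [Finite P] (H : Subgroup P) : 0 < mu H := Nat.mul_pos Nat.card_pos Nat.card_pos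

theorem exists_mem (P : Type*) [Group P] [Finite P] : ∃ H : Subgroup P, Mem H := by
  obtain ⟨H, _, hH⟩ := Set.exists_max_image (Set.univ : Set (Subgroup P)) mu (Set.toFinite _)
    ⟨⊥, trivial⟩
  exact ⟨H, fun K => hH K trivial⟩

theorem Mem.mu_eq {H K : Subgroup P} (hH : Mem H) (hK : Mem K) : mu H = mu K :=
  le_antisymm (hK H) (hH K)

theorem mem_of_le {H K : Subgroup P} (hH : Mem H) (h : mu H ≤ mu K) : Mem K :=
  fun L => (hH L).trans h

theorem maxCentralizerProduct_eq [Finite P] {H : Subgroup P} (hH : Mem H) :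
    Cfsg.maxCentralizerProduct P = mu H := by
  have hne : {k : ℕ | ∃ R : Subgroup P, Nat.card ↥R *
      Nat.card ↥(Subgroup.centralizer (R : Set P)) = k}.Nonempty := ⟨mu H, H, rfl⟩
  unfold Cfsg.maxCentralizerProduct
  apply le_antisymm
  · apply csSup_le hne
    rintro k ⟨R, rfl⟩
    exact hH R
  · apply le_csSup
    · refine ⟨mu H, ?_⟩
      rintro k ⟨R, rfl⟩
      exact hH R
    · exact ⟨H, rfl⟩

theorem isCentralizerLarge_iff [Finite P] (H : Subgroup P) :
    Cfsg.IsCentralizerLarge H ↔ Mem H := by
  obtain ⟨M, hM⟩ := exists_mem P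
  have h1 : Cfsg.IsCentralizerLarge H ↔ mu H = mu M := by
    unfold Cfsg.IsCentralizerLarge
    rw [maxCentralizerProduct_eq hM]; rfl
  rw [h1]
  constructor
  · intro h2; exact mem_of_le hM h2.ge
  · intro h2; exact h2.mu_eq hM

theorem centralizer_sup (H K : Subgroup P) :
    Subgroup.centralizer ((H ⊔ K : Subgroup P) : Set P) =
      Subgroup.centralizer (H : Set P) ⊓ Subgroup.centralizer (K : Set P) := by
  apply le_antisymm
  · exact le_inf (Subgroup.centralizer_le (SetLike.coe_subset_coe.2 le_sup_left))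
      (Subgroup.centralizer_le (SetLike.coe_subset_coe.2 le_sup_right))
  · rw [Subgroup.le_centralizer_iff]
    apply sup_le
    · rw [Subgroup.le_centralizer_iff]; exact inf_le_left
    · rw [Subgroup.le_centralizer_iff]; exact inf_le_right

theorem le_cc (H : Subgroup P) :
    H ≤ Subgroup.centralizer ((Subgroup.centralizer (H : Set P) : Subgroup P) : Set P) := by
  rw [Subgroup.le_centralizer_iff]

theorem centralizer_inf_ge (H K : Subgroup P) :
    Subgroup.centralizer (H : Set P) ⊔ Subgroup.centralizer (K : Set P) ≤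
      Subgroup.centralizer ((H ⊓ K : Subgroup P) : Set P) :=
  sup_le (Subgroup.centralizer_le (SetLike.coe_subset_coe.2 inf_le_left))
    (Subgroup.centralizer_le (SetLike.coe_subset_coe.2 inf_le_right))

section main
variable [Finite P] {H K : Subgroup P}

/-- all the numerical consequences at once -/
theorem numeric (hH : Mem H) (hK : Mem K) :
    Mem (H ⊔ K) ∧ Mem (H ⊓ K) ∧
    Nat.card (H ⊔ K : Subgroup P) * Nat.card (H ⊓ K : Subgroup P) = Nat.card H * Nat.card K ∧
    Subgroup.centralizer ((H ⊓ K : Subgroup P) : Set P) =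
      Subgroup.centralizer (H : Set P) ⊔ Subgroup.centralizer (K : Set P) ∧
    Nat.card (Subgroup.centralizer (H : Set P) ⊔ Subgroup.centralizer (K : Set P) : Subgroup P) *
      Nat.card (Subgroup.centralizer (H : Set P) ⊓ Subgroup.centralizer (K : Set P) : Subgroup P) =
      Nat.card (Subgroup.centralizer (H : Set P)) * Nat.card (Subgroup.centralizer (K : Set P)) := by
  set f := mu H with hf
  have hfK : mu K = f := hK.mu_eq hH
  have hfpos : 0 < f := mu_pos H
  have e1 := card_mul_card_le H K
  have e2 := card_mul_card_le (Subgroup.centralizer (H : Set P)) (Subgroup.centralizer (K : Set P))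
  have e3 : Nat.card (Subgroup.centralizer (H : Set P) ⊔ Subgroup.centralizer (K : Set P) :
      Subgroup P) ≤ Nat.card (Subgroup.centralizer ((H ⊓ K : Subgroup P) : Set P)) :=
    Subgroup.card_le_of_le (centralizer_inf_ge H K)
  have e4 : Nat.card (Subgroup.centralizer (H : Set P) ⊓ Subgroup.centralizer (K : Set P) :
      Subgroup P) = Nat.card (Subgroup.centralizer ((H ⊔ K : Subgroup P) : Set P)) := by
    rw [centralizer_sup]
  have m1 : mu (H ⊔ K) ≤ f := hH _
  have m2 : mu (H ⊓ K) ≤ f := hH _
  have hff : f * f = mu H * mu K := by rw [hfK, hf]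
  simp only [mu] at m1 m2 hff
  set a := Nat.card H
  set b := Nat.card K
  set c := Nat.card (Subgroup.centralizer (H : Set P))
  set d := Nat.card (Subgroup.centralizer (K : Set P))
  set s := Nat.card (H ⊔ K : Subgroup P)
  set t := Nat.card (H ⊓ K : Subgroup P)
  set u := Nat.card (Subgroup.centralizer ((H ⊔ K : Subgroup P) : Set P))
  set v := Nat.card (Subgroup.centralizer ((H ⊓ K : Subgroup P) : Set P))
  set w := Nat.card (Subgroup.centralizer (H : Set P) ⊔ Subgroup.centralizer (K : Set P) :
      Subgroup P)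
  rw [e4] at e2 ⊢
  have hspos : 0 < s := Nat.card_pos
  have htpos : 0 < t := Nat.card_pos
  have hupos : 0 < u := Nat.card_pos
  have hvpos : 0 < v := Nat.card_pos
  have hwpos : 0 < w := Nat.card_pos
  -- f*f = (a c)(b d) ≤ (s t)(w u) ≤ (s t)(v u) = (s u)(t v) ≤ f * f
  have h1 : f * f ≤ (s * t) * (w * u) := by
    rw [hff]
    calc a * c * (b * d) = (a * b) * (c * d) := by ring
      _ ≤ (s * t) * (w * u) := Nat.mul_le_mul e1 e2
  have h2 : (s * t) * (w * u) ≤ (s * t) * (v * u) :=
    Nat.mul_le_mul_left _ (Nat.mul_le_mul_right _ e3)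
  have h3 : (s * t) * (v * u) = (s * u) * (t * v) := by ring
  have h4 : (s * u) * (t * v) ≤ f * f := Nat.mul_le_mul m1 m2
  have h5 : s * u = f := by
    apply le_antisymm m1
    by_contra hlt
    push Not at hlt
    have h6 : (s * u) * (t * v) < f * f :=
      lt_of_le_of_lt (Nat.mul_le_mul_left _ m2) (Nat.mul_lt_mul_of_pos_right hlt hfpos)
    omega
  have h6 : t * v = f := by
    apply le_antisymm m2
    by_contra hlt
    push Not at hlt
    have h6 : (s * u) * (t * v) < f * f :=
      lt_of_le_of_lt (Nat.mul_le_mul_right _ m1) (Nat.mul_lt_mul_of_pos_left hlt hfpos)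
    omega
  have h7 : (s * t) * (w * u) = (s * t) * (v * u) := by
    apply le_antisymm h2
    rw [h3, h5, h6]; exact h1
  have h8 : w = v := by
    have := Nat.eq_of_mul_eq_mul_left (Nat.mul_pos hspos htpos) h7
    exact Nat.eq_of_mul_eq_mul_right hupos this
  have h9 : (a * b) * (c * d) = (s * t) * (w * u) := by
    apply le_antisymm (Nat.mul_le_mul e1 e2)
    rw [h8, h3, h5, h6, hff]
    exact le_of_eq (by ring)
  have h10 : s * t = a * b := by
    apply le_antisymm _ e1
    by_contra hlt
    push Not at hlt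
    have h11 : (a * b) * (c * d) < (s * t) * (w * u) :=
      lt_of_le_of_lt (Nat.mul_le_mul_left _ e2)
        (Nat.mul_lt_mul_of_pos_right hlt (Nat.mul_pos hwpos hupos))
    omega
  have h11 : w * u = c * d := by
    rw [h10] at h9
    have hab : 0 < a * b := by rw [← h10]; exact Nat.mul_pos hspos htpos
    exact (Nat.eq_of_mul_eq_mul_left hab h9).symm
  refine ⟨mem_of_le hH ?_, mem_of_le hH ?_, h10, ?_, h11⟩
  · show f ≤ s * u
    exact h5.ge
  · show f ≤ t * v
    exact h6.ge
  · symm
    exact Subgroup.eq_of_le_of_card_ge (centralizer_inf_ge H K) h8.ge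

theorem Mem.sup (hH : Mem H) (hK : Mem K) : Mem (H ⊔ K) := (numeric hH hK).1
theorem Mem.inf (hH : Mem H) (hK : Mem K) : Mem (H ⊓ K) := (numeric hH hK).2.1

theorem Mem.coe_sup (hH : Mem H) (hK : Mem K) :
    ((H ⊔ K : Subgroup P) : Set P) = (H : Set P) * (K : Set P) :=
  sup_eq_mul_of_card_le H K (numeric hH hK).2.2.1.le

theorem Mem.centralizer_inf (hH : Mem H) (hK : Mem K) :
    Subgroup.centralizer ((H ⊓ K : Subgroup P) : Set P) =
      Subgroup.centralizer (H : Set P) ⊔ Subgroup.centralizer (K : Set P) :=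
  (numeric hH hK).2.2.2.1

theorem Mem.centralizer_mul (hH : Mem H) (hK : Mem K) :
    ((Subgroup.centralizer (H : Set P) ⊔ Subgroup.centralizer (K : Set P) : Subgroup P) : Set P) =
      (Subgroup.centralizer (H : Set P) : Set P) * (Subgroup.centralizer (K : Set P) : Set P) :=
  sup_eq_mul_of_card_le _ _ (numeric hH hK).2.2.2.2.le

theorem Mem.centralizer (hH : Mem H) : Mem (Subgroup.centralizer (H : Set P)) := by
  apply mem_of_le hH
  unfold mu
  rw [mul_comm]
  exact Nat.mul_le_mul_left _ (Subgroup.card_le_of_le (le_cc H))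

theorem Mem.cc (hH : Mem H) :
    Subgroup.centralizer ((Subgroup.centralizer (H : Set P) : Subgroup P) : Set P) = H := by
  symm
  apply Subgroup.eq_of_le_of_card_ge (le_cc H)
  have h1 := hH (Subgroup.centralizer (H : Set P))
  unfold mu at h1
  rw [mul_comm (Nat.card H)] at h1
  exact Nat.le_of_mul_le_mul_left h1 Nat.card_pos

/-- `H ⊔ C(H)` is a member with centralizer contained in it. -/
theorem Mem.sup_centralizer (hH : Mem H) :
    Subgroup.centralizer ((H ⊔ Subgroup.centralizer (H : Set P) : Subgroup P) : Set P) =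
      H ⊓ Subgroup.centralizer (H : Set P) := by
  rw [centralizer_sup, hH.cc, inf_comm]

end main

end H55.CD
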