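import Cfsg.Prelude.Def_BaumannBlocks
import Cfsg.Agent.Lib.H55.ChermakDelgado

/-! Centrally large subgroups of a finite group. -/

set_option autoImplicit false

namespace H55.CL

open Subgroup H55.ProdCard H55.CD
open scoped Pointwise

variable {P : Type*} [Group P]

theorem map_center (R : Subgroup P) :
    (Subgroup.center R).map R.subtype = R ⊓ Subgroup.centralizer (R : Set P) := by
  ext x
  constructor
  · rintro ⟨z, hz, rfl⟩
    refine ⟨z.2, ?_⟩
    show (z : P) ∈ Subgroup.centralizer (R : Set P)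
    rw [Subgroup.mem_centralizer_iff]
    intro h hh
    have h1 := Subgroup.mem_center_iff.1 hz ⟨h, hh⟩
    exact congrArg Subtype.val h1
  · rintro ⟨hx1, hx2⟩
    refine ⟨⟨x, hx1⟩, ?_, rfl⟩
    show (⟨x, hx1⟩ : R) ∈ Subgroup.center R
    rw [Subgroup.mem_center_iff]
    intro g
    exact Subtype.ext (Subgroup.mem_centralizer_iff.1 hx2 g g.2)

theorem card_center (R : Subgroup P) :
    Nat.card (Subgroup.center R) = Nat.card (R ⊓ Subgroup.centralizer (R : Set P) : Subgroup P) := by
  rw [← map_center, Subgroup.card_map_of_injective R.subtype_injective]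

variable [Finite P]

theorem central_le_mu (R : Subgroup P) : Nat.card R * Nat.card (Subgroup.center R) ≤ mu R := by
  rw [card_center]
  exact Nat.mul_le_mul_left _ (Subgroup.card_le_of_le inf_le_right)

theorem maxCentralProduct_eq {H : Subgroup P} (hH : Mem H) :
    Cfsg.maxCentralProduct P = mu H := by
  have hne : {k : ℕ | ∃ R : Subgroup P, Nat.card ↥R *
      Nat.card ↥(Subgroup.center ↥R) = k}.Nonempty := ⟨_, H, rfl⟩
  unfold Cfsg.maxCentralProduct
  apply le_antisymm
  · apply csSup_le hne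
    rintro k ⟨R, rfl⟩
    exact (central_le_mu R).trans (hH R)
  · apply le_csSup
    · refine ⟨mu H, ?_⟩
      rintro k ⟨R, rfl⟩
      exact (central_le_mu R).trans (hH R)
    · refine ⟨H ⊔ Subgroup.centralizer (H : Set P), ?_⟩
      have h1 : Mem (H ⊔ Subgroup.centralizer (H : Set P)) := hH.sup hH.centralizer
      rw [hH.mu_eq h1]
      unfold mu
      rw [card_center]
      have h2 : Subgroup.centralizer
          ((H ⊔ Subgroup.centralizer (H : Set P) : Subgroup P) : Set P) ≤
          H ⊔ Subgroup.centralizer (H : Set P) := by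
        rw [hH.sup_centralizer]
        exact inf_le_left.trans le_sup_left
      rw [inf_eq_right.2 h2]

theorem isCentrallyLarge_iff (R : Subgroup P) :
    Cfsg.IsCentrallyLarge R ↔ Mem R ∧ Subgroup.centralizer (R : Set P) ≤ R := by
  obtain ⟨M, hM⟩ := exists_mem P
  have h1 : Cfsg.IsCentrallyLarge R ↔ Nat.card R * Nat.card (Subgroup.center R) = mu M := by
    unfold Cfsg.IsCentrallyLarge
    rw [maxCentralProduct_eq hM]
  rw [h1]
  constructor
  · intro h2
    have h3 : mu R = mu M := le_antisymm (hM R) (h2 ▸ central_le_mu R)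
    refine ⟨mem_of_le hM h3.ge, ?_⟩
    rw [← h3, card_center] at h2
    unfold mu at h2
    have h4 := Nat.eq_of_mul_eq_mul_left Nat.card_pos h2
    have h5 : R ⊓ Subgroup.centralizer (R : Set P) = Subgroup.centralizer (R : Set P) :=
      Subgroup.eq_of_le_of_card_ge inf_le_right h4.ge
    exact inf_eq_right.1 h5
  · rintro ⟨h2, h3⟩
    rw [hM.mu_eq h2, card_center, inf_eq_right.2 h3]
    rfl

theorem sup {Q R : Subgroup P} (hQ : Cfsg.IsCentrallyLarge Q) (hR : Cfsg.IsCentrallyLarge R) :
    Cfsg.IsCentrallyLarge (Q ⊔ R) := by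
  rw [isCentrallyLarge_iff] at *
  refine ⟨hQ.1.sup hR.1, ?_⟩
  rw [centralizer_sup]
  exact inf_le_left.trans (hQ.2.trans le_sup_left)

theorem exists_isCentrallyLarge (P : Type*) [Group P] [Finite P] :
    ∃ R : Subgroup P, Cfsg.IsCentrallyLarge R := by
  obtain ⟨H, hH⟩ := exists_mem P
  refine ⟨H ⊔ Subgroup.centralizer (H : Set P), (isCentrallyLarge_iff _).2
    ⟨hH.sup hH.centralizer, ?_⟩⟩
  rw [hH.sup_centralizer]
  exact inf_le_left.trans le_sup_left

theorem exists_minimal_le (R : Subgroup P) (hR : Cfsg.IsCentrallyLarge R) :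
    ∃ Q : Subgroup P, Cfsg.IsMinimalCentrallyLarge Q ∧ Q ≤ R := by
  obtain ⟨Q, ⟨hQ1, hQ2⟩, hQmin⟩ := Set.exists_min_image
    {Q : Subgroup P | Cfsg.IsCentrallyLarge Q ∧ Q ≤ R} (fun Q => Nat.card Q) (Set.toFinite _)
    ⟨R, hR, le_rfl⟩
  refine ⟨Q, ⟨hQ1, fun R' hR' hR'2 => ?_⟩, hQ2⟩
  exact Subgroup.eq_of_le_of_card_ge hR' (hQmin R' ⟨hR'2, hR'.trans hQ2⟩)

/-- join of a nonempty family of centrally large subgroups -/
theorem sSup_isCentrallyLarge (S : Set (Subgroup P)) (hne : S.Nonempty)
    (hS : ∀ R ∈ S, Cfsg.IsCentrallyLarge R) : Cfsg.IsCentrallyLarge (sSup S) := by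
  classical
  have key : ∀ T : Finset (Subgroup P), (∀ R ∈ T, Cfsg.IsCentrallyLarge R) → ∀ R₀ : Subgroup P,
      Cfsg.IsCentrallyLarge R₀ → Cfsg.IsCentrallyLarge (R₀ ⊔ T.sup id) := by
    intro T
    induction T using Finset.induction_on with
    | empty => intro _ R₀ hR₀; simpa using hR₀
    | insert a T ha ih =>
      intro hT R₀ hR₀
      rw [Finset.sup_insert, id, ← sup_assoc]
      exact ih (fun R hR => hT R (Finset.mem_insert_of_mem hR)) _
        (sup hR₀ (hT a (Finset.mem_insert_self _ _)))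
  obtain ⟨R₀, hR₀⟩ := hne
  have hfin : S.Finite := Set.toFinite S
  have h1 := key hfin.toFinset (fun R hR => hS R (hfin.mem_toFinset.1 hR)) R₀ (hS R₀ hR₀)
  have h2 : sSup S = R₀ ⊔ hfin.toFinset.sup id := by
    apply le_antisymm
    · apply sSup_le
      intro R hR
      exact le_sup_of_le_right (Finset.le_sup (f := id) (hfin.mem_toFinset.2 hR))
    · apply sup_le (le_sSup hR₀)
      apply Finset.sup_le
      intro R hR
      exact le_sSup (hfin.mem_toFinset.1 hR)
  rw [h2]; exact h1

end H55.CL
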