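import Cfsg.Prelude.Def_BaumannBlocks
import Cfsg.Agent.Lib.H55.CentrallyLarge

/-! Large abelian subgroups and centrally large subgroups. -/

set_option autoImplicit false

namespace H55.LA

open Subgroup H55.ProdCard H55.CD
open scoped Pointwise

variable {P : Type*} [Group P]

theorem comm_of_abelian {A : Subgroup P} (hA : IsMulCommutative A) : A ≤ centralizer (A : Set P) :=
  Subgroup.le_centralizer_iff_isMulCommutative.2 hA

/-- join of commuting abelian subgroups is abelian -/
theorem sup_abelian {A B : Subgroup P} (hA : A ≤ centralizer (A : Set P))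
    (hB : B ≤ centralizer (B : Set P)) (hAB : A ≤ centralizer (B : Set P)) :
    A ⊔ B ≤ centralizer ((A ⊔ B : Subgroup P) : Set P) := by
  rw [centralizer_sup]
  exact sup_le (le_inf hA hAB) (le_inf (Subgroup.le_centralizer_iff.1 hAB) hB)

variable [Finite P]

theorem exists_maxAbelian (P : Type*) [Group P] [Finite P] :
    ∃ A : Subgroup P, A ∈ Cfsg.maxAbelianSubgroups P := by
  obtain ⟨A, hA1, hA2⟩ := Set.exists_max_image
    {A : Subgroup P | IsMulCommutative A} (fun Q => Nat.card Q) (Set.toFinite _)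
    ⟨⊥, (by
      show IsMulCommutative (⊥ : Subgroup P)
      infer_instance)⟩
  exact ⟨A, hA1, fun B hB => hA2 B hB⟩

theorem self_centralizing {A : Subgroup P} (hA : A ∈ Cfsg.maxAbelianSubgroups P) :
    centralizer (A : Set P) = A := by
  apply le_antisymm
  · intro x hx
    have h1 : A ⊔ zpowers x ≤ centralizer ((A ⊔ zpowers x : Subgroup P) : Set P) := by
      apply sup_abelian (comm_of_abelian hA.1)
      · exact comm_of_abelian inferInstance
      · rw [Subgroup.le_centralizer_iff, zpowers_le]; exact hx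
    have h2 := hA.2 _ (Subgroup.le_centralizer_iff_isMulCommutative.1 h1)
    have h3 : A = A ⊔ zpowers x := Subgroup.eq_of_le_of_card_ge le_sup_left h2
    rw [h3]
    exact mem_sup_right (mem_zpowers x)
  · exact comm_of_abelian hA.1

omit [Finite P] in
/-- a large subgroup: abelian of order at least that of a member of `maxAbelianSubgroups`. -/
theorem mem_of_card_ge {A B : Subgroup P} (hA : A ∈ Cfsg.maxAbelianSubgroups P)
    (hB : B ≤ centralizer (B : Set P)) (h : Nat.card A ≤ Nat.card B) :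
    B ∈ Cfsg.maxAbelianSubgroups P :=
  ⟨Subgroup.le_centralizer_iff_isMulCommutative.1 hB, fun C hC => (hA.2 C hC).trans h⟩

section main

variable {Q A : Subgroup P} (hQ : Cfsg.IsCentrallyLarge Q) (hA : A ∈ Cfsg.maxAbelianSubgroups P)

include hQ hA

/-- the numerical content of the interaction between a centrally large subgroup `Q` and a large
abelian subgroup `A`. -/
theorem numeric :
    Mem (Q ⊔ A) ∧
    Nat.card (Q ⊔ A : Subgroup P) * Nat.card (Q ⊓ A : Subgroup P) = Nat.card Q * Nat.card A ∧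
    Nat.card A * Nat.card (A ⊓ centralizer (Q : Set P) : Subgroup P) =
      Nat.card (A ⊓ Q : Subgroup P) * Nat.card (centralizer (Q : Set P)) ∧
    Nat.card ((A ⊓ Q) ⊔ centralizer (Q : Set P) : Subgroup P) = Nat.card A := by
  obtain ⟨hQm, hQc⟩ := (H55.CL.isCentrallyLarge_iff Q).1 hQ
  have hAc := self_centralizing hA
  set Z : Subgroup P := centralizer (Q : Set P) with hZ
  have hZab : Z ≤ centralizer (Z : Set P) := hQc.trans (le_cc Q)
  have hAab : A ≤ centralizer (A : Set P) := hAc.ge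
  have hBab : (A ⊓ Q) ⊔ Z ≤ centralizer (((A ⊓ Q) ⊔ Z : Subgroup P) : Set P) := by
    apply sup_abelian _ hZab
    · exact inf_le_right.trans (le_cc Q)
    · exact inf_le_left.trans (hAab.trans
        (Subgroup.centralizer_le (SetLike.coe_subset_coe.2 inf_le_left)))
  have hB := hA.2 _ (Subgroup.le_centralizer_iff_isMulCommutative.1 hBab)
  have e1 := card_mul_card_le Q A
  have e2 := card_mul_card_le (A ⊓ Q) Z
  have e3 : (A ⊓ Q) ⊓ Z = A ⊓ Z := by
    rw [inf_assoc, inf_eq_right.2 hQc]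
  rw [e3] at e2
  have hC : centralizer ((Q ⊔ A : Subgroup P) : Set P) = A ⊓ Z := by
    rw [centralizer_sup, hAc, inf_comm]
  have m1 : mu (Q ⊔ A) ≤ mu Q := hQm _
  have e4 : Nat.card (Q ⊓ A : Subgroup P) = Nat.card (A ⊓ Q : Subgroup P) := by rw [inf_comm]
  simp only [mu, hC] at m1
  rw [e4] at e1 ⊢
  set q := Nat.card Q
  set a := Nat.card A
  set s := Nat.card (Q ⊔ A : Subgroup P)
  set i := Nat.card (A ⊓ Q : Subgroup P)
  set z := Nat.card Z
  set j := Nat.card (A ⊓ Z : Subgroup P)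
  set b := Nat.card ((A ⊓ Q) ⊔ Z : Subgroup P)
  have hq : 0 < q := Nat.card_pos
  have ha : 0 < a := Nat.card_pos
  have hs : 0 < s := Nat.card_pos
  have hi : 0 < i := Nat.card_pos
  have hz : 0 < z := Nat.card_pos
  have hj : 0 < j := Nat.card_pos
  -- e1 : q * a ≤ s * i;  e2 : i * z ≤ b * j;  hB : b ≤ a;  m1 : s * j ≤ q * z
  have h1 : i * z ≤ a * j := e2.trans (Nat.mul_le_mul_right _ hB)
  -- q a i z ≤ s i a j = (s j) (i a) ≤ q z i a
  have h2 : (q * a) * (i * z) ≤ (s * i) * (a * j) := Nat.mul_le_mul e1 h1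
  have h3 : (s * i) * (a * j) = (s * j) * (i * a) := by ring
  have h4 : (s * j) * (i * a) ≤ (q * z) * (i * a) := Nat.mul_le_mul_right _ m1
  have h5 : (q * z) * (i * a) = (q * a) * (i * z) := by ring
  have h6 : s * j = q * z := by
    have : (s * j) * (i * a) = (q * z) * (i * a) := by omega
    exact Nat.eq_of_mul_eq_mul_right (Nat.mul_pos hi ha) this
  have h7 : (s * i) * (a * j) = (q * a) * (i * z) := by omega
  have h8 : s * i = q * a := by
    apply le_antisymm _ e1
    by_contra hlt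
    push Not at hlt
    have h9 : (q * a) * (i * z) < (s * i) * (a * j) :=
      lt_of_le_of_lt (Nat.mul_le_mul_left _ h1)
        (Nat.mul_lt_mul_of_pos_right hlt (Nat.mul_pos ha hj))
    omega
  have h9 : a * j = i * z := by
    rw [h8] at h7
    exact Nat.eq_of_mul_eq_mul_left (Nat.mul_pos hq ha) h7
  have h10 : b = a := by
    apply le_antisymm hB
    rw [← h9] at e2
    exact Nat.le_of_mul_le_mul_right e2 hj
  refine ⟨mem_of_le hQm ?_, h8, h9, h10⟩
  unfold mu
  rw [hC]
  exact h6.ge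

theorem coe_sup : ((Q ⊔ A : Subgroup P) : Set P) = (Q : Set P) * (A : Set P) :=
  sup_eq_mul_of_card_le Q A (numeric hQ hA).2.1.le

theorem sup_isCentrallyLarge : Cfsg.IsCentrallyLarge (Q ⊔ A) := by
  obtain ⟨hQm, hQc⟩ := (H55.CL.isCentrallyLarge_iff Q).1 hQ
  rw [H55.CL.isCentrallyLarge_iff]
  refine ⟨(numeric hQ hA).1, ?_⟩
  rw [centralizer_sup]
  exact inf_le_left.trans (hQc.trans le_sup_left)

theorem inf_sup_center_mem : (A ⊓ Q) ⊔ centralizer (Q : Set P) ∈ Cfsg.maxAbelianSubgroups P := by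
  obtain ⟨hQm, hQc⟩ := (H55.CL.isCentrallyLarge_iff Q).1 hQ
  have hAc := self_centralizing hA
  apply mem_of_card_ge hA _ (numeric hQ hA).2.2.2.ge
  apply sup_abelian _ (hQc.trans (le_cc Q))
  · exact inf_le_right.trans (le_cc Q)
  · exact inf_le_left.trans (hAc.ge.trans
      (Subgroup.centralizer_le (SetLike.coe_subset_coe.2 inf_le_left)))

/-- `C_{QA}(Q ∩ A) ⊆ Z(Q) A` as sets -/
theorem centralizer_inf_subset :
    (((Q ⊔ A) ⊓ centralizer ((Q ⊓ A : Subgroup P) : Set P) : Subgroup P) : Set P) ⊆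
      (centralizer (Q : Set P) : Set P) * (A : Set P) := by
  obtain ⟨hQm, hQc⟩ := (H55.CL.isCentrallyLarge_iff Q).1 hQ
  have hAc := self_centralizing hA
  have hBm := inf_sup_center_mem hQ hA
  have hBc := self_centralizing hBm
  rintro x ⟨hx1, hx2⟩
  have hx1' : x ∈ ((Q ⊔ A : Subgroup P) : Set P) := hx1
  rw [coe_sup hQ hA] at hx1'
  obtain ⟨q, hq, a, ha, rfl⟩ := hx1'
  have hqQ : q ∈ Q := hq
  have haA : a ∈ A := ha
  have hq2 : q ∈ centralizer ((Q ⊓ A : Subgroup P) : Set P) := by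
    have ha2 : a ∈ centralizer ((Q ⊓ A : Subgroup P) : Set P) :=
      (hAc.ge.trans (Subgroup.centralizer_le (SetLike.coe_subset_coe.2 inf_le_right))) haA
    have := mul_mem (show q * a ∈ centralizer ((Q ⊓ A : Subgroup P) : Set P) from hx2)
      (inv_mem ha2)
    simpa using this
  have hq3 : q ∈ centralizer (((A ⊓ Q) ⊔ centralizer (Q : Set P) : Subgroup P) : Set P) := by
    rw [centralizer_sup]
    refine ⟨by rwa [inf_comm] at hq2, le_cc Q hqQ⟩
  rw [hBc] at hq3
  -- q = z * b
  have hcomm : (((A ⊓ Q) ⊔ centralizer (Q : Set P) : Subgroup P) : Set P) =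
      (centralizer (Q : Set P) : Set P) * ((A ⊓ Q : Subgroup P) : Set P) := by
    rw [sup_comm]
    apply sup_eq_mul_of_card_le
    have e3 : centralizer (Q : Set P) ⊓ (A ⊓ Q) = A ⊓ centralizer (Q : Set P) := by
      rw [inf_comm, inf_assoc, inf_eq_right.2 hQc]
    rw [e3, sup_comm, (numeric hQ hA).2.2.2, (numeric hQ hA).2.2.1, mul_comm]
  have hq4 : q ∈ (((A ⊓ Q) ⊔ centralizer (Q : Set P) : Subgroup P) : Set P) := hq3
  rw [hcomm] at hq4
  obtain ⟨z, hz, b, hb, rfl⟩ := hq4
  exact ⟨z, hz, b * a, mul_mem hb.1 haA, by simp [mul_assoc]⟩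

theorem center_sup_le :
    centralizer (Q : Set P) ⊔ A ≤ (Q ⊔ A) ⊓ centralizer ((Q ⊓ A : Subgroup P) : Set P) := by
  obtain ⟨hQm, hQc⟩ := (H55.CL.isCentrallyLarge_iff Q).1 hQ
  have hAc := self_centralizing hA
  apply sup_le
  · exact le_inf (hQc.trans le_sup_left)
      (Subgroup.centralizer_le (SetLike.coe_subset_coe.2 inf_le_left))
  · exact le_inf le_sup_right
      (hAc.ge.trans (Subgroup.centralizer_le (SetLike.coe_subset_coe.2 inf_le_right)))

theorem coe_center_sup : ((centralizer (Q : Set P) ⊔ A : Subgroup P) : Set P) =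
    (centralizer (Q : Set P) : Set P) * (A : Set P) := by
  apply Set.Subset.antisymm _ (mul_subset_sup _ _)
  exact (SetLike.coe_subset_coe.2 (center_sup_le hQ hA)).trans (centralizer_inf_subset hQ hA)

theorem centralizer_inf_eq :
    (Q ⊔ A) ⊓ centralizer ((Q ⊓ A : Subgroup P) : Set P) = centralizer (Q : Set P) ⊔ A := by
  apply le_antisymm _ (center_sup_le hQ hA)
  rw [← SetLike.coe_subset_coe, coe_center_sup hQ hA]
  exact centralizer_inf_subset hQ hA

end main

/-- if `M` is centrally large and contains `J(P)` then it contains `C(Z(J(P)))` -/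
theorem centralizer_center_thompson_le {M : Subgroup P} (hM : Cfsg.IsCentrallyLarge M)
    (hJ : Cfsg.thompsonSubgroupA P ≤ M) :
    centralizer ((Cfsg.thompsonSubgroupA P ⊓ centralizer (Cfsg.thompsonSubgroupA P : Set P) :
      Subgroup P) : Set P) ≤ M := by
  obtain ⟨hMm, hMc⟩ := (H55.CL.isCentrallyLarge_iff M).1 hM
  obtain ⟨A, hA⟩ := exists_maxAbelian P
  have hAJ : A ≤ Cfsg.thompsonSubgroupA P := le_sSup hA
  have h1 : centralizer (M : Set P) ≤
      Cfsg.thompsonSubgroupA P ⊓ centralizer (Cfsg.thompsonSubgroupA P : Set P) := by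
    have h2 : centralizer (M : Set P) ≤ centralizer (Cfsg.thompsonSubgroupA P : Set P) :=
      Subgroup.centralizer_le (SetLike.coe_subset_coe.2 hJ)
    refine le_inf ?_ h2
    refine (h2.trans (Subgroup.centralizer_le (SetLike.coe_subset_coe.2 hAJ))).trans ?_
    rw [self_centralizing hA]; exact hAJ
  refine (Subgroup.centralizer_le (SetLike.coe_subset_coe.2 h1)).trans ?_
  rw [hMm.cc]

theorem sup_thompson_isCentrallyLarge {Q : Subgroup P} (hQ : Cfsg.IsCentrallyLarge Q) :
    Cfsg.IsCentrallyLarge (Q ⊔ Cfsg.thompsonSubgroupA P) := by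
  obtain ⟨A, hA⟩ := exists_maxAbelian P
  have h1 : Q ⊔ Cfsg.thompsonSubgroupA P =
      sSup {R : Subgroup P | ∃ A ∈ Cfsg.maxAbelianSubgroups P, R = Q ⊔ A} := by
    apply le_antisymm
    · apply sup_le
      · exact le_sup_left.trans (le_sSup ⟨A, hA, rfl⟩)
      · apply sSup_le
        intro B hB
        exact le_sup_right.trans (le_sSup ⟨B, hB, rfl⟩)
    · apply sSup_le
      rintro _ ⟨B, hB, rfl⟩
      exact sup_le_sup_left (le_sSup hB) _
  rw [h1]
  have hne : {R : Subgroup P | ∃ A ∈ Cfsg.maxAbelianSubgroups P, R = Q ⊔ A}.Nonempty :=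
    ⟨Q ⊔ A, A, hA, rfl⟩
  apply H55.CL.sSup_isCentrallyLarge _ hne
  rintro _ ⟨B, hB, rfl⟩
  exact sup_isCentrallyLarge hQ hB

end H55.LA
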