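import Cfsg.Prelude.Def_BaumannBlocks
import Cfsg.Agent.Lib.H55.LargeAbelian

/-! Minimal centrally large subgroups. -/

set_option autoImplicit false

namespace H55.MCL

open Subgroup H55.ProdCard H55.CD
open scoped Pointwise commutatorElement

variable {P : Type*} [Group P] [Finite P]

theorem inf_sup_center {Q R : Subgroup P} (hQ : Cfsg.IsMinimalCentrallyLarge Q)
    (hR : Cfsg.IsMinimalCentrallyLarge R) : (Q ⊓ R) ⊔ centralizer (Q : Set P) = Q := by
  obtain ⟨hQm, hQc⟩ := (H55.CL.isCentrallyLarge_iff Q).1 hQ.1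
  obtain ⟨hRm, hRc⟩ := (H55.CL.isCentrallyLarge_iff R).1 hR.1
  apply hQ.2 _ (sup_le inf_le_left hQc)
  rw [H55.CL.isCentrallyLarge_iff]
  refine ⟨(hQm.inf hRm).sup hQm.centralizer, ?_⟩
  rw [centralizer_sup, hQm.cc, hQm.centralizer_inf hRm]
  -- (Z(Q) ⊔ Z(R)) ⊓ Q ≤ (Q ⊓ R) ⊔ Z(Q)
  rintro x ⟨hx1, hx2⟩
  have hx1' : x ∈ ((centralizer (Q : Set P) ⊔ centralizer (R : Set P) : Subgroup P) : Set P) := hx1
  rw [hQm.centralizer_mul hRm] at hx1'
  obtain ⟨a, ha, b, hb, rfl⟩ := hx1'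
  have hbQ : b ∈ Q := by
    have := mul_mem (inv_mem (hQc ha)) (show a * b ∈ Q from hx2)
    simpa using this
  exact mul_mem (mem_sup_right ha) (mem_sup_left ⟨hbQ, hRc hb⟩)

theorem commutator_eq {Q R : Subgroup P} (hQ : Cfsg.IsMinimalCentrallyLarge Q)
    (hR : Cfsg.IsMinimalCentrallyLarge R) : ⁅Q, Q⁆ = ⁅R, R⁆ := by
  have key : ∀ Q R : Subgroup P, Cfsg.IsMinimalCentrallyLarge Q →
      Cfsg.IsMinimalCentrallyLarge R → ⁅Q, Q⁆ ≤ ⁅R, R⁆ := by
    intro Q R hQ hR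
    obtain ⟨hQm, hQc⟩ := (H55.CL.isCentrallyLarge_iff Q).1 hQ.1
    have h1 := inf_sup_center hQ hR
    have h2 : (Q : Set P) = ((Q ⊓ R : Subgroup P) : Set P) * (centralizer (Q : Set P) : Set P) := by
      obtain ⟨hRm, hRc⟩ := (H55.CL.isCentrallyLarge_iff R).1 hR.1
      conv_lhs => rw [← h1]
      exact (hQm.inf hRm).coe_sup hQm.centralizer
    rw [Subgroup.commutator_le]
    intro x hx y hy
    have hx' : x ∈ (Q : Set P) := hx
    have hy' : y ∈ (Q : Set P) := hy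
    rw [h2] at hx' hy'
    obtain ⟨a, ha, z, hz, rfl⟩ := hx'
    obtain ⟨b, hb, w, hw, rfl⟩ := hy'
    have hzc : ∀ u ∈ Q, u * z = z * u := fun u hu => Subgroup.mem_centralizer_iff.1 hz u hu
    have hwc : ∀ u ∈ Q, u * w = w * u := fun u hu => Subgroup.mem_centralizer_iff.1 hw u hu
    have haQ : a ∈ Q := ha.1
    have hbQ : b ∈ Q := hb.1
    have h3 : ⁅a * z, b * w⁆ = ⁅a, b⁆ := by
      simp only [commutatorElement_def, mul_inv_rev]
      have e1 : z * (b * w) = b * w * z := (hzc (b * w) (mul_mem hbQ (hQc hw))).symm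
      have e2 : w * a⁻¹ = a⁻¹ * w := (hwc _ (inv_mem haQ)).symm
      calc a * z * (b * w) * (z⁻¹ * a⁻¹) * (w⁻¹ * b⁻¹)
          = a * (z * (b * w)) * z⁻¹ * a⁻¹ * w⁻¹ * b⁻¹ := by group
        _ = a * b * (w * a⁻¹) * w⁻¹ * b⁻¹ := by rw [e1]; group
        _ = a * b * a⁻¹ * b⁻¹ := by rw [e2]; group
    show ⁅a * z, b * w⁆ ∈ _
    rw [h3]
    exact Subgroup.commutator_mem_commutator ha.2 hb.2
  exact le_antisymm (key Q R hQ hR) (key R Q hR hQ)

/-- `Z(Q) ∩ R = Z(Q ∩ R)` -/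
theorem center_inf {Q R : Subgroup P} (hQ : Cfsg.IsMinimalCentrallyLarge Q)
    (hR : Cfsg.IsMinimalCentrallyLarge R) :
    centralizer (Q : Set P) ⊓ R = (Q ⊓ R) ⊓ centralizer ((Q ⊓ R : Subgroup P) : Set P) := by
  obtain ⟨hQm, hQc⟩ := (H55.CL.isCentrallyLarge_iff Q).1 hQ.1
  apply le_antisymm
  · refine le_inf (inf_le_inf_right _ hQc) ?_
    exact inf_le_left.trans (Subgroup.centralizer_le (SetLike.coe_subset_coe.2 inf_le_left))
  · refine le_inf ?_ (inf_le_left.trans inf_le_right)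
    conv_rhs => rw [← inf_sup_center hQ hR]
    rw [centralizer_sup]
    refine le_inf inf_le_right ?_
    rw [hQm.cc]
    exact inf_le_left.trans inf_le_left

theorem card_eq {Q R : Subgroup P} (hQ : Cfsg.IsMinimalCentrallyLarge Q)
    (hR : Cfsg.IsMinimalCentrallyLarge R) :
    Nat.card Q = Nat.card R ∧
      Nat.card (centralizer (Q : Set P)) = Nat.card (centralizer (R : Set P)) := by
  obtain ⟨hQm, hQc⟩ := (H55.CL.isCentrallyLarge_iff Q).1 hQ.1
  obtain ⟨hRm, hRc⟩ := (H55.CL.isCentrallyLarge_iff R).1 hR.1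
  have hf : mu Q = mu R := hQm.mu_eq hRm
  unfold mu at hf
  -- |Q| |Z(Q) ∩ R| = |Q ∩ R| |Z(Q)|
  have key : ∀ Q R : Subgroup P, Cfsg.IsMinimalCentrallyLarge Q →
      Cfsg.IsMinimalCentrallyLarge R →
      Nat.card Q * Nat.card ((Q ⊓ R) ⊓ centralizer ((Q ⊓ R : Subgroup P) : Set P) : Subgroup P) =
        Nat.card (Q ⊓ R : Subgroup P) * Nat.card (centralizer (Q : Set P)) := by
    intro Q R hQ hR
    obtain ⟨hQm, hQc⟩ := (H55.CL.isCentrallyLarge_iff Q).1 hQ.1
    obtain ⟨hRm, hRc⟩ := (H55.CL.isCentrallyLarge_iff R).1 hR.1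
    have h1 := card_sup_mul_card_inf_of_eq_mul _ _ ((hQm.inf hRm).coe_sup hQm.centralizer)
    rw [inf_sup_center hQ hR] at h1
    rw [← h1, ← center_inf hQ hR]
    congr 2
    have : Q ⊓ R ⊓ centralizer (Q : Set P) = centralizer (Q : Set P) ⊓ R := by
      rw [inf_comm, inf_comm Q R, ← inf_assoc, inf_assoc, inf_comm R Q, ← inf_assoc,
        inf_eq_left.2 hQc]
    rw [this]
  have h1 := key Q R hQ hR
  have h2 := key R Q hR hQ
  rw [inf_comm R Q] at h2
  set a := Nat.card Q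
  set b := Nat.card R
  set c := Nat.card (centralizer (Q : Set P))
  set d := Nat.card (centralizer (R : Set P))
  set i := Nat.card (Q ⊓ R : Subgroup P)
  set j := Nat.card ((Q ⊓ R) ⊓ centralizer ((Q ⊓ R : Subgroup P) : Set P) : Subgroup P)
  have hi : 0 < i := Nat.card_pos
  have hj : 0 < j := Nat.card_pos
  have ha : 0 < a := Nat.card_pos
  have hb : 0 < b := Nat.card_pos
  have hc : 0 < c := Nat.card_pos
  -- a j = i c, b j = i d, a c = b d
  have h3 : a = b := by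
    have h4 : a * a * (j * i) = b * b * (j * i) := by
      calc a * a * (j * i) = a * (a * j) * i := by ring
        _ = (a * c) * (i * i) := by rw [h1]; ring
        _ = (b * d) * (i * i) := by rw [hf]
        _ = b * (i * d) * i := by ring
        _ = b * b * (j * i) := by rw [← h2]; ring
    have h5 : a * a = b * b := Nat.eq_of_mul_eq_mul_right (Nat.mul_pos hj hi) h4
    exact Nat.mul_self_inj.1 h5
  refine ⟨h3, ?_⟩
  rw [h3] at hf
  exact Nat.eq_of_mul_eq_mul_left hb hf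

theorem mem_maxAbelian_of_abelian {Q : Subgroup P} (hQ : Cfsg.IsMinimalCentrallyLarge Q)
    (hab : IsMulCommutative Q) : Q ∈ Cfsg.maxAbelianSubgroups P := by
  obtain ⟨hQm, hQc⟩ := (H55.CL.isCentrallyLarge_iff Q).1 hQ.1
  have hQ2 : centralizer (Q : Set P) = Q := le_antisymm hQc (H55.LA.comm_of_abelian hab)
  refine ⟨hab, fun B hB => ?_⟩
  have h1 := hQm B
  unfold mu at h1
  rw [hQ2] at h1
  have h2 : Nat.card B ≤ Nat.card (centralizer (B : Set P)) :=
    Subgroup.card_le_of_le (H55.LA.comm_of_abelian hB)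
  exact Nat.mul_self_le_mul_self_iff.1 ((Nat.mul_le_mul_left _ h2).trans h1)

theorem iff_maxAbelian {Q : Subgroup P} (hQ : Cfsg.IsMinimalCentrallyLarge Q)
    (hab : IsMulCommutative Q) (X : Subgroup P) :
    Cfsg.IsMinimalCentrallyLarge X ↔ X ∈ Cfsg.maxAbelianSubgroups P := by
  obtain ⟨hQm, hQc⟩ := (H55.CL.isCentrallyLarge_iff Q).1 hQ.1
  have hQ2 : centralizer (Q : Set P) = Q := le_antisymm hQc (H55.LA.comm_of_abelian hab)
  have hQA := mem_maxAbelian_of_abelian hQ hab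
  constructor
  · intro hX
    obtain ⟨h1, h2⟩ := card_eq hQ hX
    rw [hQ2] at h2
    obtain ⟨hXm, hXc⟩ := (H55.CL.isCentrallyLarge_iff X).1 hX.1
    have h3 : centralizer (X : Set P) = X :=
      Subgroup.eq_of_le_of_card_ge hXc (by rw [← h2, ← h1])
    exact H55.LA.mem_of_card_ge hQA h3.ge h1.le
  · intro hX
    have hcard : Nat.card X = Nat.card Q := le_antisymm (hQA.2 X hX.1) (hX.2 Q hab)
    have hXc := H55.LA.self_centralizing hX
    have hXm : Mem X := by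
      apply mem_of_le hQm
      unfold mu
      rw [hXc, hQ2, hcard]
    refine ⟨(H55.CL.isCentrallyLarge_iff X).2 ⟨hXm, hXc.le⟩, fun R' hR' hR'2 => ?_⟩
    obtain ⟨hRm, hRc⟩ := (H55.CL.isCentrallyLarge_iff R').1 hR'2
    have h1 : mu X = mu R' := hXm.mu_eq hRm
    unfold mu at h1
    rw [hXc] at h1
    -- R' is abelian and self-centralizing
    have h2 : R' ≤ centralizer (R' : Set P) :=
      hR'.trans (hXc.ge.trans (Subgroup.centralizer_le (SetLike.coe_subset_coe.2 hR')))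
    have h3 : centralizer (R' : Set P) = R' := le_antisymm hRc h2
    rw [h3] at h1
    exact Subgroup.eq_of_le_of_card_ge hR' (Nat.mul_self_inj.1 h1).le

end H55.MCL
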