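import Mathlib
import Cfsg.Agent.Lib.H55.MinimalCL
import Cfsg.Agent.Lib.H13.Thompson
import Cfsg.Agent.Lib.H13.Omega
import Cfsg.Agent.Lib.H13.Norm
import Cfsg.Agent.Lib.H52.Sub
import Cfsg.Agent.Lib.H1.Frat

/-!
Minimal centrally large subgroups of `P` not contained in `Q`, in the presence of a natural
`FF`-module type subgroup `V ≤ Z(Q)` (T-PU, S2989, S2990).
-/

set_option autoImplicit false
set_option linter.unusedSectionVars false

namespace H55.CLPush

open Subgroup H55.ProdCard H55.CD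
open scoped commutatorElement

variable {P : Type*} [Group P] [Finite P]

/-- the hypotheses on `V ≤ Z(Q)` -/
structure FF (Q V : Subgroup P) : Prop where
  VQ : V ≤ Q
  VC : V ≤ centralizer (Q : Set P)
  ZV : center P ≤ V
  norm : V.Normal
  fix : ∀ s : P, s ∉ Q → V ⊓ centralizer ({s} : Set P) ≤ center P
  idx : (center P).relIndex V = Q.index

variable {Q V R : Subgroup P}

theorem card_V (h : FF Q V) : Nat.card V = Q.index * Nat.card (center P) := by
  rw [← h.idx, ← Subgroup.relIndex_bot_left, ← Subgroup.relIndex_bot_left, mul_comm,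
    Subgroup.relIndex_mul_relIndex _ _ _ bot_le h.ZV]

theorem card_le_inf (Q X : Subgroup P) : Nat.card X ≤ Nat.card (X ⊓ Q : Subgroup P) * Q.index := by
  have h1 : Nat.card X = Nat.card (X ⊓ Q : Subgroup P) * (X ⊓ Q).relIndex X := by
    rw [← Subgroup.relIndex_bot_left, ← Subgroup.relIndex_bot_left,
      Subgroup.relIndex_mul_relIndex _ _ _ bot_le inf_le_left]
  rw [h1, Subgroup.inf_relIndex_left]
  apply Nat.mul_le_mul_left
  rw [← Subgroup.relIndex_top_right]
  exact Subgroup.relIndex_le_of_le_right le_top (by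
    rw [Subgroup.relIndex_top_right]; exact Subgroup.index_ne_zero_of_finite)

theorem center_le_centralizer (R : Subgroup P) : center P ≤ centralizer (R : Set P) := by
  intro x hx
  rw [mem_centralizer_iff]
  intro y _
  exact mem_center_iff.mp hx y

/-- an element outside `Q` in `X` forces `V ∩ C(X) ≤ Z(P)` -/
theorem FF.inf_cent (h : FF Q V) {X : Subgroup P} (hX : ¬ X ≤ Q) :
    V ⊓ centralizer (X : Set P) ≤ center P := by
  obtain ⟨r, hr, hrQ⟩ := SetLike.not_le_iff_exists.mp hX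
  refine le_trans (inf_le_inf_left _ (centralizer_le ?_)) (h.fix r hrQ)
  simpa using hr

theorem FF.card_sup (h : FF Q V) {X : Subgroup P} (hX : X ⊓ V = center P) :
    Nat.card (X ⊔ V : Subgroup P) = Nat.card X * Q.index := by
  have := h.norm
  have h1 := H13.Thompson.card_sup_mul_card_inf (A := X) (B := V)
    (by rw [normalizer_eq_top_iff.mpr h.norm]; exact le_top)
  rw [hX, card_V h] at h1
  have h2 : Nat.card (X ⊔ V : Subgroup P) * Nat.card (center P) =
      (Nat.card X * Q.index) * Nat.card (center P) := by rw [h1]; ring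
  exact Nat.eq_of_mul_eq_mul_right Nat.card_pos h2

variable (hR : Cfsg.IsMinimalCentrallyLarge R) (hRQ : ¬ R ≤ Q)

include hR hRQ

theorem step1 (h : FF Q V) : centralizer (R : Set P) ⊓ V = center P := by
  apply le_antisymm
  · rw [inf_comm]; exact h.inf_cent hRQ
  · exact le_inf (center_le_centralizer R) h.ZV

theorem step2 (h : FF Q V) : Mem (R ⊓ Q) ∧ Nat.card R = Nat.card (R ⊓ Q : Subgroup P) * Q.index ∧
    centralizer ((R ⊓ Q : Subgroup P) : Set P) = centralizer (R : Set P) ⊔ V := by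
  obtain ⟨hRm, hRc⟩ := (H55.CL.isCentrallyLarge_iff R).1 hR.1
  have h1 := h.card_sup (step1 hR hRQ h)
  have h2 : centralizer (R : Set P) ⊔ V ≤ centralizer ((R ⊓ Q : Subgroup P) : Set P) := by
    refine sup_le (centralizer_le inf_le_left) (h.VC.trans (centralizer_le inf_le_right))
  have h3 := card_le_of_le h2
  have h4 := card_le_inf Q R
  rw [h1] at h3
  have h5 : mu R ≤ mu (R ⊓ Q) := by
    unfold mu
    calc Nat.card R * Nat.card (centralizer (R : Set P))
        ≤ (Nat.card (R ⊓ Q : Subgroup P) * Q.index) * Nat.card (centralizer (R : Set P)) :=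
          Nat.mul_le_mul_right _ h4
      _ = Nat.card (R ⊓ Q : Subgroup P) * (Nat.card (centralizer (R : Set P)) * Q.index) := by ring
      _ ≤ _ := Nat.mul_le_mul_left _ h3
  have h6 : Mem (R ⊓ Q) := mem_of_le hRm h5
  have h7 : mu R = mu (R ⊓ Q) := hRm.mu_eq h6
  unfold mu at h7
  have hq : 0 < Q.index := Nat.pos_of_ne_zero Subgroup.index_ne_zero_of_finite
  have h8 : Nat.card (centralizer ((R ⊓ Q : Subgroup P) : Set P)) ≤
      Nat.card (centralizer (R : Set P)) * Q.index := by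
    have : Nat.card (R ⊓ Q : Subgroup P) * Nat.card (centralizer ((R ⊓ Q : Subgroup P) : Set P)) ≤
        Nat.card (R ⊓ Q : Subgroup P) * (Nat.card (centralizer (R : Set P)) * Q.index) := by
      rw [← h7]
      calc Nat.card R * Nat.card (centralizer (R : Set P))
          ≤ (Nat.card (R ⊓ Q : Subgroup P) * Q.index) * Nat.card (centralizer (R : Set P)) :=
            Nat.mul_le_mul_right _ h4
        _ = _ := by ring
    exact Nat.le_of_mul_le_mul_left this Nat.card_pos
  have h9 : Nat.card (centralizer ((R ⊓ Q : Subgroup P) : Set P)) =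
      Nat.card (centralizer (R : Set P)) * Q.index := le_antisymm h8 h3
  refine ⟨h6, ?_, ?_⟩
  · rw [h9] at h7
    have : Nat.card R * Nat.card (centralizer (R : Set P)) =
        (Nat.card (R ⊓ Q : Subgroup P) * Q.index) * Nat.card (centralizer (R : Set P)) := by
      rw [h7]; ring
    exact Nat.eq_of_mul_eq_mul_right Nat.card_pos this
  · exact (eq_of_le_of_card_ge h2 (by rw [h9, h1])).symm

theorem step3 (h : FF Q V) : ¬ centralizer (R : Set P) ≤ Q := by
  intro hCQ
  obtain ⟨hRm, hRc⟩ := (H55.CL.isCentrallyLarge_iff R).1 hR.1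
  obtain ⟨h1, h2, h3⟩ := step2 hR hRQ h
  have hq : 0 < Q.index := Nat.pos_of_ne_zero Subgroup.index_ne_zero_of_finite
  -- `V ≤ R ⊓ Q`
  have h4 : centralizer (R : Set P) ⊔ V ≤ centralizer (((R ⊓ Q) ⊔ V : Subgroup P) : Set P) := by
    rw [centralizer_sup]
    refine le_inf h3.ge (sup_le ?_ ?_)
    · rw [le_centralizer_iff]
      exact h.VC.trans (centralizer_le hCQ)
    · exact h.VC.trans (centralizer_le h.VQ)
  have h5 := card_le_of_le h4
  rw [h.card_sup (step1 hR hRQ h)] at h5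
  have h6 := hRm ((R ⊓ Q) ⊔ V)
  unfold mu at h6
  have h7 : Nat.card ((R ⊓ Q) ⊔ V : Subgroup P) * (Nat.card (centralizer (R : Set P)) * Q.index) ≤
      Nat.card (R ⊓ Q : Subgroup P) * (Nat.card (centralizer (R : Set P)) * Q.index) := by
    calc _ ≤ Nat.card ((R ⊓ Q) ⊔ V : Subgroup P) *
          Nat.card (centralizer (((R ⊓ Q) ⊔ V : Subgroup P) : Set P)) := Nat.mul_le_mul_left _ h5
      _ ≤ Nat.card R * Nat.card (centralizer (R : Set P)) := h6
      _ = _ := by rw [h2]; ring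
  have h8 := Nat.le_of_mul_le_mul_right h7 (Nat.mul_pos Nat.card_pos hq)
  have h9 : R ⊓ Q = (R ⊓ Q) ⊔ V := eq_of_le_of_card_ge le_sup_left h8
  have h10 : V ≤ R ⊓ Q := by rw [h9]; exact le_sup_right
  apply hRQ
  have h11 : R ⊓ Q = R := by
    apply hR.2 _ inf_le_left
    rw [H55.CL.isCentrallyLarge_iff]
    refine ⟨h1, ?_⟩
    rw [h3]
    exact sup_le (le_inf hRc hCQ) h10
  rw [← h11]
  exact inf_le_right

theorem step4 (h : FF Q V) : (R ⊓ Q) ⊔ centralizer (R : Set P) = R := by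
  obtain ⟨hRm, hRc⟩ := (H55.CL.isCentrallyLarge_iff R).1 hR.1
  obtain ⟨h1, h2, h3⟩ := step2 hR hRQ h
  apply hR.2 _ (sup_le inf_le_left hRc)
  rw [H55.CL.isCentrallyLarge_iff]
  refine ⟨h1.sup hRm.centralizer, ?_⟩
  rw [centralizer_sup, h3]
  intro x hx
  obtain ⟨hx1, hx2⟩ := mem_inf.mp hx
  have hn := h.norm
  obtain ⟨c, hc, v, hv, rfl⟩ := mem_sup_of_normal_right.mp hx1
  have hc2 : c ∈ centralizer ((centralizer (R : Set P) : Subgroup P) : Set P) :=
    le_cc R (hRc hc)
  have hv2 : v ∈ centralizer ((centralizer (R : Set P) : Subgroup P) : Set P) := by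
    have := mul_mem (inv_mem hc2) hx2
    simpa using this
  have hv3 : v ∈ center P := h.inf_cent (step3 hR hRQ h) (mem_inf.mpr ⟨hv, hv2⟩)
  exact mul_mem (mem_sup_right hc) (mem_sup_right (center_le_centralizer R hv3))

theorem cent_V_le (h : FF Q V) : centralizer (V : Set P) ≤ Q := by
  by_contra hcon
  obtain ⟨c, hc, hcQ⟩ := SetLike.not_le_iff_exists.mp hcon
  have h1 : V ≤ center P := by
    refine le_trans (le_inf le_rfl ?_) (h.fix c hcQ)
    intro v hv
    rw [mem_centralizer_singleton_iff]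
    exact mem_centralizer_iff.mp hc v hv
  have h2 : Q.index = 1 := by
    rw [← h.idx, relIndex_eq_one]; exact h1
  have h3 : Q = ⊤ := index_eq_one.mp h2
  exact hcQ (by rw [h3]; trivial)

theorem inf_V (h : FF Q V) : R ⊓ V = center P := by
  obtain ⟨hRm, hRc⟩ := (H55.CL.isCentrallyLarge_iff R).1 hR.1
  apply le_antisymm
  · rw [← step1 hR hRQ h]
    refine le_inf ?_ inf_le_right
    rw [← step4 hR hRQ h]
    conv_rhs => rw [← step4 hR hRQ h]
    rw [centralizer_sup]
    refine le_inf ?_ ?_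
    · exact inf_le_right.trans (h.VC.trans (centralizer_le inf_le_right))
    · rw [step4 hR hRQ h]
      exact inf_le_left.trans (le_cc R)
  · exact le_inf ((center_le_centralizer R).trans hRc) h.ZV

theorem cent_R1 (h : FF Q V) : centralizer (((R ⊓ Q) ⊔ V : Subgroup P) : Set P) =
    (centralizer (R : Set P) ⊓ Q) ⊔ V := by
  obtain ⟨h1, h2, h3⟩ := step2 hR hRQ h
  rw [centralizer_sup, h3]
  apply le_antisymm
  · intro x hx
    obtain ⟨hx1, hx2⟩ := mem_inf.mp hx
    have hn := h.norm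
    obtain ⟨c, hc, v, hv, rfl⟩ := mem_sup_of_normal_right.mp hx1
    have hv2 : v ∈ centralizer (V : Set P) := (h.VC.trans (centralizer_le h.VQ)) hv
    have hc2 : c ∈ centralizer (V : Set P) := by
      have := mul_mem hx2 (inv_mem hv2)
      simpa using this
    exact mul_mem (mem_sup_left (mem_inf.mpr ⟨hc, cent_V_le hR hRQ h hc2⟩)) (mem_sup_right hv)
  · refine le_inf (sup_le_sup_right inf_le_left _) (sup_le ?_ ?_)
    · refine inf_le_right.trans ?_
      rw [le_centralizer_iff]; exact h.VC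
    · exact h.VC.trans (centralizer_le h.VQ)

/-- the replacement `R₁ = (R ∩ Q) V` is again minimal centrally large -/
theorem replacement (h : FF Q V) : Cfsg.IsMinimalCentrallyLarge ((R ⊓ Q) ⊔ V) ∧
    (R ⊓ Q) ⊔ V ≤ Q := by
  refine ⟨?_, sup_le inf_le_right h.VQ⟩
  obtain ⟨hRm, hRc⟩ := (H55.CL.isCentrallyLarge_iff R).1 hR.1
  obtain ⟨h1, h2, h3⟩ := step2 hR hRQ h
  have hCR := cent_R1 hR hRQ h
  have hZQ : center P ≤ Q := h.ZV.trans h.VQ
  have e1 : (R ⊓ Q) ⊓ V = center P := by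
    apply le_antisymm
    · rw [← inf_V hR hRQ h]
      exact inf_le_inf_right _ inf_le_left
    · refine le_inf (le_inf ?_ hZQ) h.ZV
      exact (center_le_centralizer R).trans hRc
  have e2 : (centralizer (R : Set P) ⊓ Q) ⊓ V = center P := by
    apply le_antisymm
    · rw [← step1 hR hRQ h]
      exact inf_le_inf_right _ inf_le_left
    · exact le_inf (le_inf (center_le_centralizer R) hZQ) h.ZV
  have c1 := h.card_sup e1
  have c2 := h.card_sup e2
  rw [← h2] at c1
  have c3 : mu R ≤ mu ((R ⊓ Q) ⊔ V) := by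
    unfold mu
    rw [hCR, c1, c2]
    exact Nat.mul_le_mul_left _ (card_le_inf Q _)
  have hCL : Cfsg.IsCentrallyLarge ((R ⊓ Q) ⊔ V) := by
    rw [H55.CL.isCentrallyLarge_iff]
    refine ⟨mem_of_le hRm c3, ?_⟩
    rw [hCR]
    exact sup_le_sup_right (inf_le_inf_right _ hRc) _
  obtain ⟨R₂, hR₂, hle⟩ := H55.CL.exists_minimal_le _ hCL
  have h4 := (H55.MCL.card_eq hR hR₂).1
  have h5 : R₂ = (R ⊓ Q) ⊔ V := eq_of_le_of_card_ge hle (by rw [c1, h4])
  rwa [← h5]

omit hR hRQ

/-! ### Frattini subgroups -/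

/-- the Frattini subgroup of a subgroup -/
def Phi (X : Subgroup P) : Subgroup P := (frattini X).map X.subtype

variable {p : ℕ} [hp : Fact p.Prime]

theorem pow_mem_Phi (hP : IsPGroup p P) {X : Subgroup P} {x : P} (hx : x ∈ X) : x ^ p ∈ Phi X := by
  refine ⟨⟨x, hx⟩ ^ p, H1.Frat.pow_mem_frattini (hP.to_subgroup X) _, rfl⟩

theorem comm_mem_Phi (hP : IsPGroup p P) {X : Subgroup P} {x y : P} (hx : x ∈ X) (hy : y ∈ X) :
    ⁅x, y⁆ ∈ Phi X := by
  have : Group.IsNilpotent X := (hP.to_subgroup X).isNilpotent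
  refine ⟨⁅(⟨x, hx⟩ : X), (⟨y, hy⟩ : X)⁆, H1.Frat.commutator_le_frattini ?_, rfl⟩
  exact Subgroup.commutator_mem_commutator (mem_top _) (mem_top _)

theorem Phi_mono (hP : IsPGroup p P) {X Y : Subgroup P} (h : Y ≤ X) : Phi Y ≤ Phi X :=
  H52.Sub.map_frattini_le (p := p) (fun _ ha _ hb => comm_mem_Phi hP (h ha) (h hb))
    (fun _ ha => pow_mem_Phi hP (h ha))

theorem Phi_sup (hP : IsPGroup p P) {Y W : Subgroup P} (h1 : W ≤ centralizer (Y : Set P))
    (h2 : W ≤ centralizer (W : Set P)) (h3 : ∀ w ∈ W, w ^ p = 1) : Phi (Y ⊔ W) = Phi Y := by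
  apply le_antisymm _ (Phi_mono hP le_sup_left)
  have hn : Y ≤ normalizer (W : Set P) := by
    refine le_trans ?_ (centralizer_le_normalizer _)
    rwa [le_centralizer_iff]
  have hyw : ∀ {y w : P}, y ∈ Y → w ∈ W → w * y = y * w := fun hy hw =>
    (mem_centralizer_iff.mp (h1 hw) _ hy).symm
  apply H52.Sub.map_frattini_le (p := p)
  · intro a ha b hb
    obtain ⟨y, hy, w, hw, rfl⟩ := (H13.Norm.mem_sup_of_le_normalizer hn).mp ha
    obtain ⟨y', hy', w', hw', rfl⟩ := (H13.Norm.mem_sup_of_le_normalizer hn).mp hb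
    have e1 : ⁅y * w, y' * w'⁆ = ⁅y, y'⁆ := by
      simp only [commutatorElement_def, mul_inv_rev]
      have c1 : w * y' = y' * w := hyw hy' hw
      have c2 : w * w' = w' * w := (mem_centralizer_iff.mp (h2 hw) _ hw').symm
      have c3 : w' * y⁻¹ = y⁻¹ * w' := hyw (inv_mem hy) hw'
      calc y * w * (y' * w') * (w⁻¹ * y⁻¹) * (w'⁻¹ * y'⁻¹)
          = y * (w * y') * w' * w⁻¹ * y⁻¹ * w'⁻¹ * y'⁻¹ := by group
        _ = y * y' * (w * w') * w⁻¹ * y⁻¹ * w'⁻¹ * y'⁻¹ := by rw [c1]; group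
        _ = y * y' * (w' * y⁻¹) * w'⁻¹ * y'⁻¹ := by rw [c2]; group
        _ = y * y' * y⁻¹ * y'⁻¹ := by rw [c3]; group
    rw [e1]
    exact comm_mem_Phi hP hy hy'
  · intro a ha
    obtain ⟨y, hy, w, hw, rfl⟩ := (H13.Norm.mem_sup_of_le_normalizer hn).mp ha
    rw [(show Commute y w from (hyw hy hw).symm).mul_pow, h3 w hw, mul_one]
    exact pow_mem_Phi hP hy

/-- the order of `Ω₁(Z(R))` does not decrease, and in case of equality the Frattini subgroup is kept -/
theorem best (hR : Cfsg.IsMinimalCentrallyLarge R) (hRQ : ¬ R ≤ Q) (h : FF Q V)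
    (hP : IsPGroup p P) {V₀ : Subgroup P} (hV₀ : Cfsg.IsElementaryAbelian p V₀)
    (hVV : V = V₀ ⊔ center P) :
    Nat.card (Cfsg.omegaOneCenter p R) ≤ Nat.card (Cfsg.omegaOneCenter p ((R ⊓ Q) ⊔ V)) ∧
      (Nat.card (Cfsg.omegaOneCenter p ((R ⊓ Q) ⊔ V)) ≤ Nat.card (Cfsg.omegaOneCenter p R) →
        Phi R = Phi ((R ⊓ Q) ⊔ V)) := by
  obtain ⟨hRm, hRc⟩ := (H55.CL.isCentrallyLarge_iff R).1 hR.1
  obtain ⟨h1, h2, h3⟩ := step2 hR hRQ h
  have hCR := cent_R1 hR hRQ h
  have hV₀V : V₀ ≤ V := by rw [hVV]; exact le_sup_left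
  set Om := Cfsg.omegaOneCenter p R with hOm
  set R1 := (R ⊓ Q) ⊔ V with hR1
  have hq : 0 < Q.index := Nat.pos_of_ne_zero Subgroup.index_ne_zero_of_finite
  have hab : R ⊓ centralizer (R : Set P) ≤
      centralizer ((R ⊓ centralizer (R : Set P) : Subgroup P) : Set P) :=
    inf_le_right.trans (centralizer_le inf_le_left)
  have hmem : ∀ {x}, x ∈ Om ↔ x ∈ R ⊓ centralizer (R : Set P) ∧ x ^ p = 1 :=
    fun {x} => H13.Omega.mem_omegaOne hab
  have hOmR : Om ≤ R := fun x hx => (mem_inf.mp (hmem.mp hx).1).1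
  have hOmC : Om ≤ centralizer (R : Set P) := fun x hx => (mem_inf.mp (hmem.mp hx).1).2
  have hOmE : Om ≤ centralizer (Om : Set P) := hOmC.trans (centralizer_le hOmR)
  have hle : (Om ⊓ Q) ⊔ V₀ ≤ Cfsg.omegaOneCenter p R1 := by
    refine sup_le ?_ ?_
    · intro x hx
      obtain ⟨hx1, hx2⟩ := mem_inf.mp hx
      apply H13.Omega.mem_omegaOne_of _ (hmem.mp hx1).2
      refine mem_inf.mpr ⟨mem_sup_left (mem_inf.mpr ⟨hOmR hx1, hx2⟩), ?_⟩
      rw [hCR]
      exact mem_sup_left (mem_inf.mpr ⟨hOmC hx1, hx2⟩)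
    · intro x hx
      apply H13.Omega.mem_omegaOne_of _ (hV₀.2 x hx)
      refine mem_inf.mpr ⟨mem_sup_right (hV₀V hx), ?_⟩
      rw [hCR]
      exact mem_sup_right (hV₀V hx)
  have hcard := card_le_of_le hle
  -- the order of `V₀`
  have e1 : Nat.card V₀ = Q.index * Nat.card (V₀ ⊓ center P : Subgroup P) := by
    have e2 := H13.Thompson.card_sup_mul_card_inf (A := V₀) (B := center P)
      (by rw [normalizer_eq_top_iff.mpr inferInstance]; exact le_top)
    rw [← hVV, card_V h] at e2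
    have e3 : (Q.index * Nat.card (V₀ ⊓ center P : Subgroup P)) * Nat.card (center P) =
        Nat.card V₀ * Nat.card (center P) := by rw [← e2]; ring
    exact (Nat.eq_of_mul_eq_mul_right Nat.card_pos e3).symm
  have e4 : (Om ⊓ Q) ⊓ V₀ = V₀ ⊓ center P := by
    apply le_antisymm
    · refine le_inf inf_le_right ?_
      rw [← step1 hR hRQ h]
      exact le_inf ((inf_le_left.trans inf_le_left).trans hOmC) (inf_le_right.trans hV₀V)
    · refine le_inf ?_ inf_le_left
      intro x hx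
      obtain ⟨hx1, hx2⟩ := mem_inf.mp hx
      refine mem_inf.mpr ⟨hmem.mpr ⟨?_, hV₀.2 x hx1⟩, h.VQ (h.ZV hx2)⟩
      exact mem_inf.mpr ⟨hRc (center_le_centralizer R hx2), center_le_centralizer R hx2⟩
  have e5 : Nat.card ((Om ⊓ Q) ⊔ V₀ : Subgroup P) = Nat.card (Om ⊓ Q : Subgroup P) * Q.index := by
    have hn : Om ⊓ Q ≤ normalizer (V₀ : Set P) := by
      refine le_trans ?_ (centralizer_le_normalizer _)
      rw [le_centralizer_iff]
      exact (hV₀V.trans h.VC).trans (centralizer_le inf_le_right)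
    have e6 := H13.Thompson.card_sup_mul_card_inf hn
    rw [e4, e1] at e6
    have e7 : Nat.card ((Om ⊓ Q) ⊔ V₀ : Subgroup P) * Nat.card (V₀ ⊓ center P : Subgroup P) =
        (Nat.card (Om ⊓ Q : Subgroup P) * Q.index) * Nat.card (V₀ ⊓ center P : Subgroup P) := by
      rw [e6]; ring
    exact Nat.eq_of_mul_eq_mul_right Nat.card_pos e7
  have e8 := card_le_inf Q Om
  rw [e5] at hcard
  refine ⟨e8.trans hcard, ?_⟩
  intro hbest
  have e9 : Nat.card Om = Nat.card (Om ⊓ Q : Subgroup P) * Q.index :=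
    le_antisymm e8 (hcard.trans hbest)
  -- `R = (R ∩ Q) Ω`
  have e10 : (R ⊓ Q) ⊔ Om = R := by
    have hn : R ⊓ Q ≤ normalizer (Om : Set P) := by
      refine le_trans ?_ (centralizer_le_normalizer _)
      rw [le_centralizer_iff]
      exact hOmC.trans (centralizer_le inf_le_left)
    have e6 := H13.Thompson.card_sup_mul_card_inf hn
    have e7 : (R ⊓ Q) ⊓ Om = Om ⊓ Q := by
      rw [inf_assoc, inf_comm Q Om, ← inf_assoc, inf_eq_right.mpr hOmR]
    rw [e7, e9] at e6
    have e11 : Nat.card ((R ⊓ Q) ⊔ Om : Subgroup P) * Nat.card (Om ⊓ Q : Subgroup P) =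
        Nat.card R * Nat.card (Om ⊓ Q : Subgroup P) := by
      rw [e6, h2]; ring
    apply eq_of_le_of_card_ge (sup_le inf_le_left hOmR)
    exact (Nat.eq_of_mul_eq_mul_right Nat.card_pos e11).ge
  have e12 : R1 = (R ⊓ Q) ⊔ V₀ := by
    rw [hR1]
    apply le_antisymm
    · refine sup_le le_sup_left ?_
      rw [hVV]
      refine sup_le le_sup_right ?_
      refine le_trans (le_inf ?_ ?_) le_sup_left
      · exact (center_le_centralizer R).trans hRc
      · exact h.ZV.trans h.VQ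
    · exact sup_le_sup_left hV₀V _
  rw [e12, Phi_sup hP (Y := R ⊓ Q) (W := V₀)]
  · conv_lhs => rw [← e10]
    exact Phi_sup hP (hOmC.trans (centralizer_le inf_le_left)) hOmE (fun w hw => (hmem.mp hw).2)
  · exact (hV₀V.trans h.VC).trans (centralizer_le inf_le_right)
  · exact (hV₀V.trans h.VC).trans (centralizer_le (hV₀V.trans h.VQ))
  · exact hV₀.2

end H55.CLPush
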