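import Mathlib
import Cfsg.Agent.Lib.H55.CLPush
import Cfsg.Agent.Lib.H28.Cj
import Cfsg.Agent.Lib.H28.RelSyl

/-!
Transfer of minimal centrally large subgroups between a Sylow subgroup `S` and `Q = O_p(G)`
(T-PU, S2989, S2990).
-/

set_option autoImplicit false
set_option linter.unusedSectionVars false

namespace H55.CLPushG

open Subgroup H28.Cj

variable {G : Type*} [Group G] [Finite G]

/-- `R ≤ X` is centrally large in `X` -/
def CLr (X R : Subgroup G) : Prop :=
  R ≤ X ∧ Nat.card R * Nat.card (center R) = Cfsg.maxCentralProduct X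

/-- `R ≤ X` is minimal centrally large in `X` -/
def MCr (X R : Subgroup G) : Prop := CLr X R ∧ ∀ R' : Subgroup G, R' ≤ R → CLr X R' → R' = R

theorem card_center_congr {H K : Type*} [Group H] [Group K] (e : H ≃* K) :
    Nat.card (center H) = Nat.card (center K) := Nat.card_congr (Subgroup.centerCongr e).toEquiv

theorem card_center_map {X : Subgroup G} (R : Subgroup X) :
    Nat.card (center (R.map X.subtype)) = Nat.card (center R) :=
  (card_center_congr (R.equivMapOfInjective _ X.subtype_injective)).symm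

theorem isCL_iff {X : Subgroup G} (R : Subgroup X) :
    Cfsg.IsCentrallyLarge R ↔ CLr X (R.map X.subtype) := by
  unfold Cfsg.IsCentrallyLarge CLr
  rw [card_center_map, card_map_of_injective X.subtype_injective]
  exact ⟨fun h => ⟨map_subtype_le R, h⟩, fun h => h.2⟩

theorem map_subgroupOf {X R : Subgroup G} (h : R ≤ X) : (R.subgroupOf X).map X.subtype = R := by
  rw [subgroupOf_map_subtype, inf_eq_left.mpr h]

theorem isMCL_iff {X : Subgroup G} (R : Subgroup X) :
    Cfsg.IsMinimalCentrallyLarge R ↔ MCr X (R.map X.subtype) := by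
  unfold Cfsg.IsMinimalCentrallyLarge MCr
  rw [isCL_iff]
  refine and_congr Iff.rfl ?_
  constructor
  · intro h R' hR' hR'2
    have h1 := map_subgroupOf hR'2.1
    have h2 := h (R'.subgroupOf X) ?_ ?_
    · rw [← h2, h1]
    · rw [← map_le_map_iff_of_injective X.subtype_injective, h1]; exact hR'
    · rw [isCL_iff, h1]; exact hR'2
  · intro h R' hR' hR'2
    have h1 := h (R'.map X.subtype) (map_mono hR') ((isCL_iff R').mp hR'2)
    exact map_injective X.subtype_injective h1

theorem MCr.iff {X R : Subgroup G} (h : R ≤ X) :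
    MCr X R ↔ Cfsg.IsMinimalCentrallyLarge (R.subgroupOf X) := by
  rw [isMCL_iff, map_subgroupOf h]

theorem MCr.le {X R : Subgroup G} (h : MCr X R) : R ≤ X := h.1.1

theorem exists_MCr (X : Subgroup G) : ∃ R, MCr X R := by
  obtain ⟨R, hR⟩ := H55.CL.exists_isCentrallyLarge X
  obtain ⟨R', hR', -⟩ := H55.CL.exists_minimal_le R hR
  exact ⟨_, (isMCL_iff R').mp hR'⟩

/-- the maximum is an upper bound -/
theorem le_max {X R : Subgroup G} (h : R ≤ X) :
    Nat.card R * Nat.card (center R) ≤ Cfsg.maxCentralProduct X := by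
  obtain ⟨M, hM⟩ := H55.CD.exists_mem X
  rw [H55.CL.maxCentralProduct_eq hM]
  have h1 := H55.CL.central_le_mu (R.subgroupOf X)
  rw [← card_center_map, ← card_map_of_injective X.subtype_injective, map_subgroupOf h] at h1
  exact h1.trans (hM _)

theorem max_eq {Q S R₀ : Subgroup G} (hQS : Q ≤ S) (h : CLr S R₀) (hR₀ : R₀ ≤ Q) :
    Cfsg.maxCentralProduct Q = Cfsg.maxCentralProduct S := by
  apply le_antisymm
  · obtain ⟨R, hR, -⟩ := exists_MCr Q
    rw [← hR.2]
    exact le_max (hR.1.trans hQS)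
  · rw [← h.2]
    exact le_max hR₀

theorem CLr_iff {Q S R₀ : Subgroup G} (hQS : Q ≤ S) (h : CLr S R₀) (hR₀ : R₀ ≤ Q)
    {R : Subgroup G} : CLr Q R ↔ CLr S R ∧ R ≤ Q := by
  unfold CLr
  rw [max_eq hQS h hR₀]
  exact ⟨fun h => ⟨⟨h.1.trans hQS, h.2⟩, h.1⟩, fun h => ⟨h.2, h.1.2⟩⟩

theorem MCr_iff {Q S R₀ : Subgroup G} (hQS : Q ≤ S) (h : CLr S R₀) (hR₀ : R₀ ≤ Q)
    {R : Subgroup G} : MCr Q R ↔ MCr S R ∧ R ≤ Q := by
  unfold MCr
  rw [CLr_iff hQS h hR₀]
  constructor
  · rintro ⟨⟨h1, h2⟩, h3⟩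
    exact ⟨⟨h1, fun R' hR' hR'2 => h3 R' hR' ((CLr_iff hQS h hR₀).mpr ⟨hR'2, hR'.trans h2⟩)⟩, h2⟩
  · rintro ⟨⟨h1, h3⟩, h2⟩
    exact ⟨⟨h1, h2⟩, fun R' hR' hR'2 => h3 R' hR' ((CLr_iff hQS h hR₀).mp hR'2).1⟩

/-- conjugation -/
theorem CLr_cj {X R : Subgroup G} {g : G} (hg : cj g X = X) (h : CLr X R) : CLr X (cj g R) := by
  refine ⟨by rw [← hg]; exact map_mono h.1, ?_⟩
  rw [card_cj, ← card_center_congr (cjEquiv g R)]
  exact h.2

theorem MCr_cj {X R : Subgroup G} {g : G} (hg : cj g X = X) (h : MCr X R) : MCr X (cj g R) := by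
  refine ⟨CLr_cj hg h.1, fun R' hR' hR'2 => ?_⟩
  have hg' : cj g⁻¹ X = X := by rw [cj_eq_iff, inv_inv, hg]
  have h1 := h.2 (cj g⁻¹ R') ?_ (CLr_cj hg' hR'2)
  · rw [← h1, cj_cj_inv]
  · rw [← cj_inv_cj g R]; exact map_mono hR'

theorem commutator_eq {X R R' : Subgroup G} (h : MCr X R) (h' : MCr X R') : ⁅R, R⁆ = ⁅R', R'⁆ := by
  have h1 := H55.MCL.commutator_eq ((MCr.iff h.le).mp h) ((MCr.iff h'.le).mp h')
  have h2 := congrArg (Subgroup.map X.subtype) h1
  rwa [map_commutator, map_commutator, map_subgroupOf h.le, map_subgroupOf h'.le] at h2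

theorem cj_eq_of_normal {N : Subgroup G} (h : N.Normal) (g : G) : cj g N = N := by
  ext x
  rw [mem_cj]
  constructor
  · intro hx
    have := h.conj_mem _ hx g
    simpa [mul_assoc] using this
  · intro hx
    have := h.conj_mem _ hx g⁻¹
    simpa using this

theorem normal_of_cj {N : Subgroup G} (h : ∀ g : G, cj g N ≤ N) : N.Normal := by
  constructor
  intro n hn g
  exact h g (conj_mem_cj.mpr hn)

/-- the join of the minimal centrally large subgroups of a normal subgroup is normal -/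
theorem join_normal {Q : Subgroup G} (hQ : Q.Normal) : (sSup {R | MCr Q R}).Normal := by
  apply normal_of_cj
  intro g
  rw [cj, map_le_iff_le_comap]
  apply sSup_le
  intro R hR
  rw [← map_le_iff_le_comap]
  exact le_sSup (MCr_cj (cj_eq_of_normal hQ g) hR)

/-- the common derived subgroup is normal -/
theorem derived_normal {Q R : Subgroup G} (hQ : Q.Normal) (h : MCr Q R) : (⁅R, R⁆).Normal := by
  apply normal_of_cj
  intro g
  rw [cj, map_commutator]
  exact (commutator_eq (MCr_cj (cj_eq_of_normal hQ g) h) h).le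

/-! ### the FF hypotheses in `G` -/

/-- the `FF` configuration in `G` -/
structure FFG (p : ℕ) (S Q V V₀ : Subgroup G) : Prop where
  QS : Q ≤ S
  VQ : V ≤ Q
  VC : V ≤ centralizer (Q : Set G)
  ZV : S ⊓ centralizer (S : Set G) ≤ V
  norm : S ≤ normalizer (V : Set G)
  fix : ∀ s ∈ S, s ∉ Q → V ⊓ centralizer ({s} : Set G) ≤ S ⊓ centralizer (S : Set G)
  idx : (S ⊓ centralizer (S : Set G)).relIndex V = Q.relIndex S
  el : Cfsg.IsElementaryAbelian p V₀
  sup : V = V₀ ⊔ (S ⊓ centralizer (S : Set G))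

theorem center_eq (S : Subgroup G) : (center S).map S.subtype = S ⊓ centralizer (S : Set G) :=
  H55.CL.map_center S

theorem mem_center_sub {S : Subgroup G} {x : S} :
    x ∈ center S ↔ (x : G) ∈ S ⊓ centralizer (S : Set G) := by
  rw [← center_eq]
  constructor
  · intro h; exact ⟨x, h, rfl⟩
  · rintro ⟨y, hy, hxy⟩
    have : y = x := Subtype.ext hxy
    rwa [← this]

variable {p : ℕ} {S Q V V₀ : Subgroup G}

theorem FFG.ff (h : FFG p S Q V V₀) : H55.CLPush.FF (Q.subgroupOf S) (V.subgroupOf S) where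
  VQ := by
    intro x hx
    exact mem_subgroupOf.mpr (h.VQ (mem_subgroupOf.mp hx))
  VC := by
    intro x hx
    rw [mem_centralizer_iff]
    intro y hy
    exact Subtype.ext (mem_centralizer_iff.mp (h.VC (mem_subgroupOf.mp hx)) y (mem_subgroupOf.mp hy))
  ZV := by
    intro x hx
    exact mem_subgroupOf.mpr (h.ZV (mem_center_sub.mp hx))
  norm := by
    constructor
    intro n hn g
    rw [mem_subgroupOf] at hn ⊢
    exact (mem_normalizer_iff.mp (h.norm g.2) _).mp hn
  fix := by
    intro s hs x hx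
    obtain ⟨hx1, hx2⟩ := mem_inf.mp hx
    rw [mem_center_sub]
    apply h.fix s s.2 (fun h1 => hs (mem_subgroupOf.mpr h1))
    refine mem_inf.mpr ⟨mem_subgroupOf.mp hx1, ?_⟩
    rw [mem_centralizer_singleton_iff] at hx2 ⊢
    exact congrArg Subtype.val hx2
  idx := by
    have h1 : center S = (S ⊓ centralizer (S : Set G)).subgroupOf S := by
      ext x
      rw [mem_center_sub, mem_subgroupOf]
    rw [h1, relIndex_subgroupOf (h.VQ.trans h.QS), h.idx]
    rfl

theorem FFG.el' (h : FFG p S Q V V₀) : Cfsg.IsElementaryAbelian p (V₀.subgroupOf S) := by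
  refine ⟨⟨⟨?_⟩⟩, ?_⟩
  · rintro ⟨x, hx⟩ ⟨y, hy⟩
    rw [mem_subgroupOf] at hx hy
    apply Subtype.ext
    apply Subtype.ext
    exact (congrArg Subtype.val (h.el.1.is_comm.comm ⟨(x : G), hx⟩ ⟨(y : G), hy⟩) :)
  · intro x hx
    apply Subtype.ext
    exact h.el.2 x hx

theorem FFG.sup' (h : FFG p S Q V V₀) : V.subgroupOf S = V₀.subgroupOf S ⊔ center S := by
  apply map_injective S.subtype_injective
  have hV : V ≤ S := h.VQ.trans h.QS
  have hV₀ : V₀ ≤ S := by
    refine le_trans ?_ hV
    rw [h.sup]; exact le_sup_left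
  rw [Subgroup.map_sup, map_subgroupOf hV, map_subgroupOf hV₀, center_eq]
  exact h.sup

/-- the replacement in `G` -/
theorem replacement (h : FFG p S Q V V₀) {R : Subgroup G} (hR : MCr S R) (hRQ : ¬ R ≤ Q) :
    MCr S ((R ⊓ Q) ⊔ V) ∧ (R ⊓ Q) ⊔ V ≤ Q ∧ ¬ (R ⊓ centralizer (R : Set G)) ≤ Q := by
  have hR' := (MCr.iff hR.le).mp hR
  have hRQ' : ¬ R.subgroupOf S ≤ Q.subgroupOf S := by
    intro h1
    apply hRQ
    have := map_mono (f := S.subtype) h1
    rwa [map_subgroupOf hR.le, map_subgroupOf h.QS] at this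
  have hle : (R ⊓ Q) ⊔ V ≤ Q := sup_le inf_le_right h.VQ
  obtain ⟨h1, -⟩ := H55.CLPush.replacement hR' hRQ' h.ff
  have h3 := H55.CLPush.step3 hR' hRQ' h.ff
  refine ⟨?_, hle, ?_⟩
  · rw [MCr.iff (hle.trans h.QS)]
    convert h1 using 1
    apply map_injective S.subtype_injective
    rw [map_subgroupOf (hle.trans h.QS), Subgroup.map_sup, Subgroup.map_inf _ _ _ S.subtype_injective,
      map_subgroupOf hR.le, map_subgroupOf h.QS, map_subgroupOf (h.VQ.trans h.QS)]
  · intro hcon
    apply h3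
    intro x hx
    rw [mem_subgroupOf]
    apply hcon
    have h4 := ((H55.CL.isCentrallyLarge_iff _).1 hR'.1).2 hx
    refine mem_inf.mpr ⟨mem_subgroupOf.mp h4, ?_⟩
    rw [mem_centralizer_iff]
    intro y hy
    have h5 := mem_centralizer_iff.mp hx ⟨y, hR.le hy⟩ (mem_subgroupOf.mpr hy)
    exact congrArg Subtype.val h5

theorem normal_of_le_center {D : Subgroup G} (h : D ≤ center G) : D.Normal := by
  constructor
  intro n hn g
  rw [mem_center_iff.mp (h hn) g, mul_inv_cancel_right]
  exact hn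

/-! ### S2990 -/

theorem join_map (S : Subgroup G) :
    (Cfsg.minimalCentrallyLargeJoin S).map S.subtype = sSup {R | MCr S R} := by
  unfold Cfsg.minimalCentrallyLargeJoin
  apply le_antisymm
  · rw [map_le_iff_le_comap]
    apply sSup_le
    intro R hR
    rw [← map_le_iff_le_comap]
    exact le_sSup ((isMCL_iff R).mp hR)
  · apply sSup_le
    intro R hR
    rw [← map_subgroupOf hR.le]
    exact map_mono (le_sSup ((MCr.iff hR.le).mp hR))

/-- S2990, middle part -/
theorem main2990 (hQn : Q.Normal) (hQS : Q ≤ S)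
    (hcases : ∀ N : Subgroup G, N.Normal → N ⊓ S ≤ Q ∨ N ⊔ S = ⊤)
    (hZ : ¬ (S ⊓ centralizer (S : Set G)).Normal → (∃ R, MCr S R ∧ ¬ R ≤ Q) →
      ∃ V V₀ : Subgroup G, FFG p S Q V V₀)
    {R : Subgroup G} (hR : MCr S R) :
    ((S ⊓ centralizer (S : Set G)) ⊓ ⁅R, R⁆).Normal ∨ (sSup {R | MCr S R}).Normal := by
  -- a normal subgroup centralised by something not in `Q` meets `Z(S)` in central elements
  have key : ∀ D : Subgroup G, D.Normal → (∃ x ∈ S, x ∉ Q ∧ x ∈ centralizer (D : Set G)) →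
      ((S ⊓ centralizer (S : Set G)) ⊓ D).Normal := by
    rintro D hD ⟨x, hxS, hxQ, hxD⟩
    have hN : (centralizer (D : Set G)).Normal := by
      have := hD
      infer_instance
    rcases hcases _ hN with h1 | h1
    · exact absurd (h1 (mem_inf.mpr ⟨hxD, hxS⟩)) hxQ
    · have h2 : (S ⊓ centralizer (S : Set G)) ⊓ D ≤ center G := by
        intro z hz
        obtain ⟨hz1, hz2⟩ := mem_inf.mp hz
        have h3 : centralizer (D : Set G) ⊔ S ≤ centralizer ({z} : Set G) := by
          refine sup_le (centralizer_le (by simpa using hz2)) ?_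
          intro s hs
          rw [mem_centralizer_singleton_iff]
          exact mem_centralizer_iff.mp (mem_inf.mp hz1).2 s hs
        rw [h1, top_le_iff] at h3
        rw [mem_center_iff]
        intro g
        have : g ∈ centralizer ({z} : Set G) := by rw [h3]; trivial
        exact mem_centralizer_singleton_iff.mp this
      exact normal_of_le_center h2
  by_cases hA : ∀ R, MCr S R → R ≤ Q
  · right
    have h1 : {R | MCr S R} = {R | MCr Q R} := by
      ext R'
      exact ⟨fun h => (MCr_iff hQS hR.1 (hA R hR)).mpr ⟨h, hA R' h⟩,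
        fun h => ((MCr_iff hQS hR.1 (hA R hR)).mp h).1⟩
    rw [h1]
    exact join_normal hQn
  · left
    push Not at hA
    obtain ⟨R₂, hR₂, hR₂Q⟩ := hA
    by_cases hZn : (S ⊓ centralizer (S : Set G)).Normal
    · -- `Z(S)` is central
      by_cases hSQ : S ≤ Q
      · exact absurd (hR₂.le.trans hSQ) hR₂Q
      obtain ⟨x, hxS, hxQ⟩ := SetLike.not_le_iff_exists.mp hSQ
      have h1 := key _ hZn ⟨x, hxS, hxQ, by
        rw [mem_centralizer_iff]
        intro z hz
        exact (mem_centralizer_iff.mp (mem_inf.mp hz).2 x hxS).symm⟩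
      rw [inf_idem] at h1
      rcases hcases (centralizer ((S ⊓ centralizer (S : Set G) : Subgroup G) : Set G))
        (by have := hZn; infer_instance) with h2 | h2
      · have h3 : S ≤ centralizer ((S ⊓ centralizer (S : Set G) : Subgroup G) : Set G) := by
          rw [le_centralizer_iff]; exact inf_le_right
        exact absurd (h2 (mem_inf.mpr ⟨h3 hxS, hxS⟩)) hxQ
      · apply normal_of_le_center
        intro z hz
        obtain ⟨hz1, -⟩ := mem_inf.mp hz
        have h3 : centralizer ((S ⊓ centralizer (S : Set G) : Subgroup G) : Set G) ⊔ S ≤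
            centralizer ({z} : Set G) := by
          refine sup_le (centralizer_le (by simpa using hz1)) ?_
          intro s hs
          rw [mem_centralizer_singleton_iff]
          exact mem_centralizer_iff.mp (mem_inf.mp hz1).2 s hs
        rw [h2, top_le_iff] at h3
        rw [mem_center_iff]
        intro g
        have : g ∈ centralizer ({z} : Set G) := by rw [h3]; trivial
        exact mem_centralizer_singleton_iff.mp this
    · obtain ⟨V, V₀, hF⟩ := hZ hZn ⟨R₂, hR₂, hR₂Q⟩
      obtain ⟨h1, h2, h3⟩ := replacement hF hR₂ hR₂Q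
      have h4 : MCr Q ((R₂ ⊓ Q) ⊔ V) := (MCr_iff hQS h1.1 h2).mpr ⟨h1, h2⟩
      have h5 := derived_normal hQn h4
      rw [commutator_eq h1 hR] at h5
      apply key _ h5
      obtain ⟨x, hx, hxQ⟩ := SetLike.not_le_iff_exists.mp h3
      obtain ⟨hx1, hx2⟩ := mem_inf.mp hx
      refine ⟨x, hR₂.le hx1, hxQ, ?_⟩
      rw [commutator_eq hR hR₂]
      refine centralizer_le ?_ hx2
      exact SetLike.coe_subset_coe.mpr (commutator_le_self R₂)

end H55.CLPushG
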