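import Mathlib
import Cfsg.Agent.Lib.H55.CLPushG

/-!
S2989: the subgroup generated by the Frattini subgroups of the best minimal centrally large subgroups.
-/

set_option autoImplicit false
set_option linter.unusedSectionVars false

namespace H55.CLPushB

open Subgroup H28.Cj H55.CLPushG

section general
variable {G : Type*} [Group G] {G' : Type*} [Group G']

/-- the Frattini subgroup of a subgroup -/
def PhiG (R : Subgroup G) : Subgroup G := (frattini R).map R.subtype

theorem map_frattini_equiv {P Q : Type*} [Group P] [Group Q] (e : P ≃* Q) :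
    (frattini P).map e.toMonoidHom = frattini Q := by
  apply le_antisymm
  · rw [map_le_iff_le_comap]
    exact frattini_le_comap_frattini_of_surjective e.surjective
  · intro y hy
    have h1 := frattini_le_comap_frattini_of_surjective (φ := e.symm.toMonoidHom) e.symm.surjective hy
    exact ⟨e.symm y, h1, e.apply_symm_apply y⟩

theorem PhiG_map {f : G →* G'} (hf : Function.Injective f) (R : Subgroup G) :
    PhiG (R.map f) = (PhiG R).map f := by
  unfold PhiG
  rw [← map_frattini_equiv (R.equivMapOfInjective f hf), map_map, map_map]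
  congr 1

theorem omegaOneCenter_map {p : ℕ} {f : G →* G'} (hf : Function.Injective f) (R : Subgroup G) :
    Cfsg.omegaOneCenter p (R.map f) = (Cfsg.omegaOneCenter p R).map f := by
  unfold Cfsg.omegaOneCenter
  rw [H13.Omega.map_omegaOne_of_injective hf]
  congr 1
  ext x
  constructor
  · intro hx
    obtain ⟨⟨y, hy, rfl⟩, hx2⟩ := mem_inf.mp hx
    refine ⟨y, mem_inf.mpr ⟨hy, ?_⟩, rfl⟩
    rw [mem_centralizer_iff]
    intro z hz
    apply hf
    rw [map_mul, map_mul]
    exact mem_centralizer_iff.mp hx2 _ ⟨z, hz, rfl⟩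
  · rintro ⟨y, hy, rfl⟩
    obtain ⟨hy1, hy2⟩ := mem_inf.mp hy
    refine mem_inf.mpr ⟨⟨y, hy1, rfl⟩, ?_⟩
    rw [mem_centralizer_iff]
    rintro _ ⟨z, hz, rfl⟩
    rw [← map_mul, ← map_mul, mem_centralizer_iff.mp hy2 z hz]

theorem card_omega_map {p : ℕ} {f : G →* G'} (hf : Function.Injective f) (R : Subgroup G) :
    Nat.card (Cfsg.omegaOneCenter p (R.map f)) = Nat.card (Cfsg.omegaOneCenter p R) := by
  rw [omegaOneCenter_map hf, card_map_of_injective hf]

end general

variable {G : Type*} [Group G] [Finite G] {p : ℕ}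

/-- best minimal centrally large subgroups -/
def Bst (p : ℕ) (X R : Subgroup G) : Prop := MCr X R ∧ ∀ R', MCr X R' →
  Nat.card (Cfsg.omegaOneCenter p R') ≤ Nat.card (Cfsg.omegaOneCenter p R)

theorem exists_Bst (p : ℕ) (X : Subgroup G) : ∃ R, Bst p X R := by
  obtain ⟨R, hR, hR2⟩ := Set.exists_max_image {R | MCr X R}
    (fun R => Nat.card (Cfsg.omegaOneCenter p R)) (Set.toFinite _) (exists_MCr X)
  exact ⟨R, hR, hR2⟩

theorem Bst_cj {X R : Subgroup G} {g : G} (hg : cj g X = X) (h : Bst p X R) :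
    Bst p X (cj g R) := by
  refine ⟨MCr_cj hg h.1, fun R' hR' => ?_⟩
  rw [cj, card_omega_map (MulAut.conj g).injective]
  exact h.2 R' hR'

theorem Bst_iff {X : Subgroup G} (R : Subgroup X) :
    (Cfsg.IsMinimalCentrallyLarge R ∧
      Nat.card (Cfsg.omegaOneCenter p R) = Cfsg.maxOmegaCenterOfMinimalCL p X) ↔
      Bst p X (R.map X.subtype) := by
  have hb : BddAbove {k : ℕ | ∃ Q : Subgroup X, Cfsg.IsMinimalCentrallyLarge Q ∧
      Nat.card (Cfsg.omegaOneCenter p Q) = k} := by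
    refine ⟨Nat.card X, ?_⟩
    rintro k ⟨Q, -, rfl⟩
    exact card_le_card_group _
  unfold Cfsg.maxOmegaCenterOfMinimalCL
  constructor
  · rintro ⟨h1, h2⟩
    refine ⟨(isMCL_iff R).mp h1, fun R' hR' => ?_⟩
    rw [card_omega_map X.subtype_injective, h2]
    apply le_csSup hb
    refine ⟨R'.subgroupOf X, (MCr.iff hR'.le).mp hR', ?_⟩
    rw [← card_omega_map X.subtype_injective, map_subgroupOf hR'.le]
  · rintro ⟨h1, h2⟩
    have h1' := (isMCL_iff R).mpr h1
    refine ⟨h1', le_antisymm (le_csSup hb ⟨R, h1', rfl⟩) ?_⟩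
    refine csSup_le ⟨Nat.card (Cfsg.omegaOneCenter p R), R, h1', rfl⟩ ?_
    rintro k ⟨Q, hQ, rfl⟩
    have h3 := h2 _ ((isMCL_iff Q).mp hQ)
    rwa [card_omega_map X.subtype_injective, card_omega_map X.subtype_injective] at h3

theorem phi_map (S : Subgroup G) :
    (Cfsg.frattiniOfMinimalCLJoin p S).map S.subtype =
      ⨆ R : {R : Subgroup G // Bst p S R}, PhiG (R : Subgroup G) := by
  unfold Cfsg.frattiniOfMinimalCLJoin
  apply le_antisymm
  · rw [map_le_iff_le_comap]
    apply iSup_le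
    rintro ⟨R, hR⟩
    rw [← map_le_iff_le_comap]
    have h1 := (Bst_iff R).mp hR
    have h2 := le_iSup (fun R : {R : Subgroup G // Bst p S R} => PhiG (R : Subgroup G)) ⟨_, h1⟩
    refine le_trans ?_ h2
    exact (PhiG_map S.subtype_injective R).ge
  · apply iSup_le
    rintro ⟨R, hR⟩
    have hRS := hR.1.le
    have h1 : Bst p S ((R.subgroupOf S).map S.subtype) := by rwa [map_subgroupOf hRS]
    have h2 := (Bst_iff (p := p) (R.subgroupOf S)).mpr h1
    show PhiG R ≤ _
    rw [← map_subgroupOf hRS, PhiG_map S.subtype_injective]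
    apply map_mono
    exact le_iSup (fun Q : {Q : Subgroup S // Cfsg.IsMinimalCentrallyLarge Q ∧
      Nat.card (Cfsg.omegaOneCenter p Q) = Cfsg.maxOmegaCenterOfMinimalCL p S} =>
      (frattini (Q : Subgroup S)).map (Q : Subgroup S).subtype) ⟨_, h2⟩

theorem phi_normal {Q : Subgroup G} (hQ : Q.Normal) :
    (⨆ R : {R : Subgroup G // Bst p Q R}, PhiG (R : Subgroup G)).Normal := by
  apply normal_of_cj
  intro g
  rw [cj, map_le_iff_le_comap]
  apply iSup_le
  rintro ⟨R, hR⟩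
  rw [← map_le_iff_le_comap, ← PhiG_map (MulAut.conj g).injective]
  exact le_iSup (fun R : {R : Subgroup G // Bst p Q R} => PhiG (R : Subgroup G))
    ⟨_, Bst_cj (cj_eq_of_normal hQ g) hR⟩

/-- S2989, first part, from the replacement property -/
theorem main2989 [hp : Fact p.Prime] {S Q : Subgroup G} (hSp : IsPGroup p S) (hQn : Q.Normal)
    (hQS : Q ≤ S)
    (hF : (∃ R, MCr S R ∧ ¬ R ≤ Q) → ∃ V V₀ : Subgroup G, FFG p S Q V V₀) :
    (⨆ R : {R : Subgroup G // Bst p S R}, PhiG (R : Subgroup G)).Normal := by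
  -- every best subgroup can be replaced
  have key : ∀ R, Bst p S R → ∃ R₁, Bst p S R₁ ∧ R₁ ≤ Q ∧ PhiG R = PhiG R₁ := by
    intro R hR
    by_cases hRQ : R ≤ Q
    · exact ⟨R, hR, hRQ, rfl⟩
    obtain ⟨V, V₀, h⟩ := hF ⟨R, hR.1, hRQ⟩
    obtain ⟨h1, h2, -⟩ := replacement h hR.1 hRQ
    have hR' := (MCr.iff hR.1.le).mp hR.1
    have hRQ' : ¬ R.subgroupOf S ≤ Q.subgroupOf S := by
      intro h1
      apply hRQ
      have := map_mono (f := S.subtype) h1
      rwa [map_subgroupOf hR.1.le, map_subgroupOf h.QS] at this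
    obtain ⟨h3, h4⟩ := H55.CLPush.best hR' hRQ' h.ff hSp h.el' h.sup'
    have e1 : ((R.subgroupOf S ⊓ Q.subgroupOf S) ⊔ V.subgroupOf S).map S.subtype =
        (R ⊓ Q) ⊔ V := by
      rw [Subgroup.map_sup, Subgroup.map_inf _ _ _ S.subtype_injective,
        map_subgroupOf hR.1.le, map_subgroupOf h.QS, map_subgroupOf (h.VQ.trans h.QS)]
    have e2 : Nat.card (Cfsg.omegaOneCenter p
        ((R.subgroupOf S ⊓ Q.subgroupOf S) ⊔ V.subgroupOf S)) =
        Nat.card (Cfsg.omegaOneCenter p ((R ⊓ Q) ⊔ V)) := by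
      rw [← e1, card_omega_map S.subtype_injective]
    have e3 : Nat.card (Cfsg.omegaOneCenter p (R.subgroupOf S)) =
        Nat.card (Cfsg.omegaOneCenter p R) := by
      rw [← card_omega_map S.subtype_injective, map_subgroupOf hR.1.le]
    rw [e2, e3] at h3 h4
    have hb : Bst p S ((R ⊓ Q) ⊔ V) := ⟨h1, fun R' hR' => (hR.2 R' hR').trans h3⟩
    refine ⟨_, hb, h2, ?_⟩
    have h5 := h4 (hR.2 _ h1)
    have h6 := congrArg (Subgroup.map S.subtype) h5
    have h7 : ∀ X : Subgroup S, H55.CLPush.Phi X = PhiG X := fun X => rfl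
    rw [h7, h7, ← PhiG_map S.subtype_injective, ← PhiG_map S.subtype_injective, e1,
      map_subgroupOf hR.1.le] at h6
    exact h6
  obtain ⟨R₀, hR₀⟩ := exists_Bst p S
  obtain ⟨R₁, hR₁, hR₁Q, -⟩ := key R₀ hR₀
  have hiff : ∀ R, Bst p Q R ↔ Bst p S R ∧ R ≤ Q := by
    intro R
    have h1 : ∀ R, MCr Q R ↔ MCr S R ∧ R ≤ Q := fun R => MCr_iff hQS hR₁.1.1 hR₁Q
    constructor
    · rintro ⟨h2, h3⟩
      obtain ⟨h4, h5⟩ := (h1 R).mp h2
      refine ⟨⟨h4, fun R' hR' => ?_⟩, h5⟩
      exact (hR₁.2 R' hR').trans (h3 R₁ ((h1 R₁).mpr ⟨hR₁.1, hR₁Q⟩))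
    · rintro ⟨h2, h3⟩
      exact ⟨(h1 R).mpr ⟨h2.1, h3⟩, fun R' hR' => h2.2 R' ((h1 R').mp hR').1⟩
  have heq : (⨆ R : {R : Subgroup G // Bst p S R}, PhiG (R : Subgroup G)) =
      ⨆ R : {R : Subgroup G // Bst p Q R}, PhiG (R : Subgroup G) := by
    apply le_antisymm
    · apply iSup_le
      rintro ⟨R, hR⟩
      obtain ⟨R', hR', hR'Q, hphi⟩ := key R hR
      show PhiG R ≤ _
      rw [hphi]
      exact le_iSup (fun R : {R : Subgroup G // Bst p Q R} => PhiG (R : Subgroup G))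
        ⟨R', (hiff R').mpr ⟨hR', hR'Q⟩⟩
    · apply iSup_le
      rintro ⟨R, hR⟩
      exact le_iSup (fun R : {R : Subgroup G // Bst p S R} => PhiG (R : Subgroup G))
        ⟨R, ((hiff R).mp hR).1⟩
  rw [heq]
  exact phi_normal hQn

end H55.CLPushB
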