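import Mathlib
import Cfsg.Agent.Lib.H55.CLPushB
import Cfsg.Agent.Lib.H51.ThompsonA

/-!
S2989, S2990 modulo the FF core (hypotheses `hcases`, `hff`).
-/

set_option autoImplicit false
set_option linter.unusedSectionVars false

namespace H55.CLFinal

open Subgroup H28.Cj H55.CLPushG H55.CLPushB H51.ThompsonA
open scoped commutatorElement

variable {G : Type*} [Group G] [Finite G] {p : ℕ} {S Q : Subgroup G}

theorem Ab_cj {A : Subgroup G} (h : Ab A) (g : G) : Ab (cj g A) := h.map _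

theorem MaxAb_cj {X A : Subgroup G} {g : G} (hg : cj g X = X) (h : MaxAb A X) :
    MaxAb (cj g A) X := by
  refine ⟨by rw [← hg]; exact map_mono h.1, Ab_cj h.2.1 g, fun B hB hBa => ?_⟩
  rw [card_cj]
  have hg' : cj g⁻¹ X = X := by rw [cj_eq_iff, inv_inv, hg]
  have := h.2.2 (cj g⁻¹ B) (by rw [← hg']; exact map_mono hB) (Ab_cj hBa _)
  rwa [card_cj] at this

theorem J_normal {X : Subgroup G} (h : X.Normal) : (J X).Normal := by
  apply normal_of_cj
  intro g
  rw [cj, map_le_iff_le_comap]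
  apply sSup_le
  intro A hA
  rw [← map_le_iff_le_comap]
  exact (MaxAb_cj (cj_eq_of_normal h g) hA).le_J

/-- if `S` centralises `Z(J(S))` and all `A ∈ 𝒜(S)` lie in `Q`, then `Z(S)` is normal -/
theorem center_normal (hQn : Q.Normal) (hQS : Q ≤ S)
    (hJ : S ≤ centralizer (Cfsg.centerThompsonAOf S : Set G))
    (hA : ∀ A, MaxAb A S → A ≤ Q) : (S ⊓ centralizer (S : Set G)).Normal := by
  have h1 : J S = J Q := by
    obtain ⟨A₀, hA₀⟩ := exists_maxAb S
    have h2 : {A | MaxAb A S} = {A | MaxAb A Q} := by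
      ext A
      constructor
      · intro h
        exact ⟨hA A h, h.2.1, fun B hB hBa => h.2.2 B (hB.trans hQS) hBa⟩
      · intro h
        exact ⟨h.1.trans hQS, h.2.1, fun B hB hBa =>
          (hA₀.2.2 B hB hBa).trans (h.2.2 A₀ (hA A₀ hA₀) hA₀.2.1)⟩
    unfold J
    rw [h2]
  have hJn : (J S).Normal := by rw [h1]; exact J_normal hQn
  have h2 : (J S ⊓ centralizer (J S : Set G)).Normal := by
    have := hJn
    infer_instance
  have h3 : S ⊓ centralizer (S : Set G) = J S ⊓ centralizer (J S : Set G) := by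
    apply le_antisymm
    · intro z hz
      obtain ⟨hz1, hz2⟩ := mem_inf.mp hz
      refine mem_inf.mpr ⟨?_, centralizer_le (J_le S) hz2⟩
      obtain ⟨A, hA'⟩ := exists_maxAb S
      have h4 : Ab (A ⊔ zpowers z) := hA'.2.1.sup (ab_zpowers z) (by
        intro a ha b hb
        have h5 : zpowers z ≤ centralizer (S : Set G) := by rwa [zpowers_le]
        exact mem_centralizer_iff.mp (h5 hb) a (hA'.1 ha))
      have h5 : A ⊔ zpowers z ≤ S := sup_le hA'.1 (by rwa [zpowers_le])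
      have h6 := hA'.2.2 _ h5 h4
      have h7 : A = A ⊔ zpowers z := eq_of_le_of_card_ge le_sup_left h6
      apply hA'.le_J
      rw [h7]
      exact mem_sup_right (mem_zpowers z)
    · have h4 : Cfsg.centerThompsonAOf S = J S ⊓ centralizer (J S : Set G) := by
        unfold Cfsg.centerThompsonAOf
        rw [thompsonSubgroupAOf_eq]
      rw [← h4]
      refine le_inf ?_ ?_
      · rw [h4]; exact inf_le_left.trans (J_le S)
      · rw [le_centralizer_iff]; exact hJ
  rw [h3]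
  exact h2

/-- the interface -/
structure Core (p : ℕ) (S Q : Subgroup G) : Prop where
  prime : p.Prime
  Sp : IsPGroup p S
  Qn : Q.Normal
  QS : Q ≤ S
  cases : ∀ N : Subgroup G, N.Normal → N ⊓ S ≤ Q ∨ N ⊔ S = ⊤
  ff : ¬ (S ⊓ centralizer (S : Set G)).Normal → ∀ A, MaxAb A S → ¬ A ≤ Q →
    ∃ V V₀ : Subgroup G, FFG p S Q V V₀

theorem Core.ff' (h : Core p S Q) (hJ : S ≤ centralizer (Cfsg.centerThompsonAOf S : Set G))
    (hZ : ¬ (S ⊓ centralizer (S : Set G)).Normal) : ∃ V V₀ : Subgroup G, FFG p S Q V V₀ := by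
  by_cases hA : ∀ A, MaxAb A S → A ≤ Q
  · exact absurd (center_normal h.Qn h.QS hJ hA) hZ
  · push Not at hA
    obtain ⟨A, hA1, hA2⟩ := hA
    exact h.ff hZ A hA1 hA2

theorem s2989 [Fact p.Prime] (h : Core p S Q)
    (hJ : S ≤ centralizer (Cfsg.centerThompsonAOf S : Set G)) :
    ((S ⊓ centralizer (S : Set G)).Normal ∨
      ((Cfsg.frattiniOfMinimalCLJoin p ↥S).map S.subtype).Normal) ∧
    (Cfsg.frattiniOfMinimalCLJoin p ↥S = ⊥ →
      (∀ Q : Subgroup ↥S, Cfsg.IsMinimalCentrallyLarge Q ↔ Q ∈ Cfsg.maxAbelianSubgroups ↥S) ∧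
      ∃ A ∈ Cfsg.maxAbelianSubgroups ↥S, Cfsg.IsElementaryAbelian p A) := by
  constructor
  · by_cases hZ : (S ⊓ centralizer (S : Set G)).Normal
    · exact Or.inl hZ
    · right
      rw [phi_map]
      exact main2989 h.Sp h.Qn h.QS (fun _ => h.ff' hJ hZ)
  · intro hbot
    obtain ⟨R, hR⟩ := exists_Bst p S
    have hRS := hR.1.le
    have h1 := (Bst_iff (p := p) (R.subgroupOf S)).mpr (by rwa [map_subgroupOf hRS])
    set T := R.subgroupOf S with hT
    have h2 : (frattini T).map T.subtype ≤ Cfsg.frattiniOfMinimalCLJoin p ↥S :=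
      le_iSup (fun Q : {Q : Subgroup S // Cfsg.IsMinimalCentrallyLarge Q ∧
        Nat.card (Cfsg.omegaOneCenter p Q) = Cfsg.maxOmegaCenterOfMinimalCL p S} =>
        (frattini (Q : Subgroup S)).map (Q : Subgroup S).subtype) ⟨T, h1⟩
    rw [hbot] at h2
    have hTp : IsPGroup p S := h.Sp
    have hel : Cfsg.IsElementaryAbelian p T := by
      refine ⟨⟨⟨?_⟩⟩, ?_⟩
      · rintro ⟨x, hx⟩ ⟨y, hy⟩
        have h3 := mem_bot.mp (h2 (H55.CLPush.comm_mem_Phi hTp hx hy))
        exact Subtype.ext (commutatorElement_eq_one_iff_mul_comm.mp h3)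
      · intro x hx
        exact mem_bot.mp (h2 (H55.CLPush.pow_mem_Phi hTp hx))
    refine ⟨fun Q => H55.MCL.iff_maxAbelian h1.1 hel.1 Q, T, ?_, hel⟩
    exact H55.MCL.mem_maxAbelian_of_abelian h1.1 hel.1

theorem isMCL_map {P : Type*} [Group P] [Finite P] (e : P ≃* P) {R : Subgroup P}
    (h : Cfsg.IsMinimalCentrallyLarge R) : Cfsg.IsMinimalCentrallyLarge (R.map e.toMonoidHom) := by
  have key : ∀ (e : P ≃* P) (R : Subgroup P), Cfsg.IsCentrallyLarge R →
      Cfsg.IsCentrallyLarge (R.map e.toMonoidHom) := by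
    intro e R hR
    unfold Cfsg.IsCentrallyLarge at *
    rw [card_map_of_injective e.injective, ← hR]
    congr 1
    exact (card_center_congr (R.equivMapOfInjective _ e.injective)).symm
  refine ⟨key e R h.1, fun R' hR' hR'2 => ?_⟩
  have h1 := h.2 (R'.map e.symm.toMonoidHom) ?_ (key e.symm R' hR'2)
  · rw [← h1, map_map]
    have : e.toMonoidHom.comp e.symm.toMonoidHom = MonoidHom.id P := by
      ext x; simp
    rw [this, map_id]
  · rintro _ ⟨x, hx, rfl⟩
    obtain ⟨y, hy, rfl⟩ := hR' hx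
    simpa using hy

theorem s2990 [Fact p.Prime] (h : Core p S Q)
    (hJ : S ≤ centralizer (Cfsg.centerThompsonAOf S : Set G)) (R : Subgroup ↥S)
    (hR : Cfsg.IsMinimalCentrallyLarge R) :
    (⁅R, R⁆).Characteristic ∧
    (((S ⊓ centralizer (S : Set G)) ⊓ (⁅R, R⁆).map S.subtype).Normal ∨
      ((Cfsg.minimalCentrallyLargeJoin ↥S).map S.subtype).Normal) ∧
    (⁅R, R⁆ = ⊥ → ∀ R' : Subgroup ↥S, Cfsg.IsMinimalCentrallyLarge R' ↔
      R' ∈ Cfsg.maxAbelianSubgroups ↥S) := by
  refine ⟨?_, ?_, ?_⟩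
  · rw [characteristic_iff_map_le]
    intro e
    rw [map_commutator]
    exact (H55.MCL.commutator_eq (isMCL_map e hR) hR).le
  · rw [map_commutator, join_map]
    exact main2990 h.Qn h.QS h.cases (fun hZ _ => h.ff' hJ hZ) ((isMCL_iff R).mp hR)
  · intro hbot R'
    apply H55.MCL.iff_maxAbelian hR
    refine ⟨⟨?_⟩⟩
    rintro ⟨x, hx⟩ ⟨y, hy⟩
    have h3 : ⁅x, y⁆ ∈ ⁅R, R⁆ := commutator_mem_commutator hx hy
    rw [hbot, mem_bot] at h3
    exact Subtype.ext (commutatorElement_eq_one_iff_mul_comm.mp h3)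

end H55.CLFinal
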