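import Cfsg.Prelude.Def_BaumannBlocks
import Cfsg.Agent.Lib.H55.MinimalCL
import Cfsg.Agent.Lib.H55.SylowBasic

/-! A Borel-type fixed point theorem in the Chermak–Delgado lattice: some minimal centrally large
subgroup is normalized by the Thompson subgroup. -/

set_option autoImplicit false

namespace H55.CLF

open Subgroup H55.ProdCard H55.CD H55.SylowBasic
open scoped Pointwise

variable {P : Type*} [Group P]

/-- In a nilpotent group, a normal subgroup `F` not inside `N` contains an element outside `N`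
all of whose commutators lie in `N`. -/
theorem exists_commutator_mem {T : Type*} [Group T] [hT : Group.IsNilpotent T] (F N : Subgroup T)
    [F.Normal] (h : ¬ F ≤ N) :
    ∃ x ∈ F, x ∉ N ∧ ∀ g : T, x * g * x⁻¹ * g⁻¹ ∈ N := by
  classical
  have hex : ∃ i : ℕ, ¬ (F ⊓ Subgroup.upperCentralSeries T i ≤ N) := by
    obtain ⟨n, hn⟩ := (Group.isNilpotent_iff T).1 hT
    exact ⟨n, by rw [hn, inf_top_eq]; exact h⟩
  obtain ⟨i, hi, hmin⟩ : ∃ i : ℕ, ¬ (F ⊓ Subgroup.upperCentralSeries T i ≤ N) ∧
      ∀ j < i, F ⊓ Subgroup.upperCentralSeries T j ≤ N :=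
    ⟨Nat.find hex, Nat.find_spec hex, fun j hj => by
      have := Nat.find_min hex hj
      push Not at this; exact this⟩
  rcases i with _ | j
  · exfalso
    apply hi
    rw [Subgroup.upperCentralSeries_zero, inf_bot_eq]
    exact bot_le
  · obtain ⟨x, hx1, hx2⟩ := SetLike.not_le_iff_exists.1 hi
    refine ⟨x, hx1.1, hx2, fun g => ?_⟩
    apply hmin j (Nat.lt_succ_self j)
    refine ⟨?_, Subgroup.mem_upperCentralSeries_succ_iff.1 hx1.2 g⟩
    have : x * g * x⁻¹ * g⁻¹ = x * (g * x⁻¹ * g⁻¹) := by group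
    rw [this]
    exact mul_mem hx1.1 (‹F.Normal›.conj_mem _ (inv_mem hx1.1) g)

theorem centralizer_map_conj (H : Subgroup P) (g : P) :
    centralizer ((H.map (MulAut.conj g).toMonoidHom : Subgroup P) : Set P) =
      (centralizer (H : Set P)).map (MulAut.conj g).toMonoidHom := by
  ext x
  constructor
  · intro hx
    refine ⟨g⁻¹ * x * g, ?_, by simp [mul_assoc]⟩
    show g⁻¹ * x * g ∈ centralizer (H : Set P)
    rw [Subgroup.mem_centralizer_iff]
    intro h hh
    have h1 := Subgroup.mem_centralizer_iff.1 hx (g * h * g⁻¹) ⟨h, hh, rfl⟩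
    calc h * (g⁻¹ * x * g) = g⁻¹ * ((g * h * g⁻¹) * x) * g := by group
      _ = g⁻¹ * (x * (g * h * g⁻¹)) * g := by rw [h1]
      _ = _ := by group
  · rintro ⟨y, hy, rfl⟩
    rw [Subgroup.mem_centralizer_iff]
    rintro _ ⟨h, hh, rfl⟩
    have h1 := Subgroup.mem_centralizer_iff.1 hy h hh
    show g * h * g⁻¹ * (g * y * g⁻¹) = (g * y * g⁻¹) * (g * h * g⁻¹)
    calc g * h * g⁻¹ * (g * y * g⁻¹) = g * (h * y) * g⁻¹ := by group
      _ = g * (y * h) * g⁻¹ := by rw [h1]
      _ = _ := by group

theorem mu_map_conj (H : Subgroup P) (g : P) :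
    mu (H.map (MulAut.conj g).toMonoidHom) = mu H := by
  unfold mu
  rw [centralizer_map_conj, Subgroup.card_map_of_injective (MulAut.conj g).injective,
    Subgroup.card_map_of_injective (MulAut.conj g).injective]

theorem mem_map_conj {H : Subgroup P} (hH : Mem H) (g : P) :
    Mem (H.map (MulAut.conj g).toMonoidHom) :=
  mem_of_le hH (mu_map_conj H g).ge

/-- isotropic members -/
def Iso (N : Subgroup P) : Prop := Mem N ∧ N ≤ centralizer (N : Set P)

theorem maxAbelian_map_conj [Finite P] {A : Subgroup P} (hA : A ∈ Cfsg.maxAbelianSubgroups P)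
    (g : P) : A.map (MulAut.conj g).toMonoidHom ∈ Cfsg.maxAbelianSubgroups P := by
  apply H55.LA.mem_of_card_ge hA
  · rw [centralizer_map_conj]
    exact Subgroup.map_mono (H55.LA.comm_of_abelian hA.1)
  · rw [Subgroup.card_map_of_injective (MulAut.conj g).injective]

/-- join of a nonempty family of members -/
theorem iSup_mem [Finite P] {ι : Type*} [Nonempty ι] (F : ι → Subgroup P) (hF : ∀ i, Mem (F i)) :
    Mem (⨆ i, F i) := by
  classical
  have key : ∀ T : Finset (Subgroup P), (∀ R ∈ T, Mem R) → ∀ R₀ : Subgroup P,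
      Mem R₀ → Mem (R₀ ⊔ T.sup id) := by
    intro T
    induction T using Finset.induction_on with
    | empty => intro _ R₀ hR₀; simpa using hR₀
    | insert a T ha ih =>
      intro hT R₀ hR₀
      rw [Finset.sup_insert, id, ← sup_assoc]
      exact ih (fun R hR => hT R (Finset.mem_insert_of_mem hR)) _
        (hR₀.sup (hT a (Finset.mem_insert_self _ _)))
  obtain ⟨i₀⟩ := ‹Nonempty ι›
  have hfin : (Set.range F).Finite := Set.toFinite _
  have h1 := key hfin.toFinset (fun R hR => by
    obtain ⟨i, rfl⟩ := hfin.mem_toFinset.1 hR; exact hF i) (F i₀) (hF i₀)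
  have h2 : (⨆ i, F i) = F i₀ ⊔ hfin.toFinset.sup id := by
    apply le_antisymm
    · apply iSup_le
      intro i
      exact le_sup_of_le_right (Finset.le_sup (f := id) (hfin.mem_toFinset.2 ⟨i, rfl⟩))
    · apply sup_le (le_iSup F i₀)
      apply Finset.sup_le
      intro R hR
      obtain ⟨i, rfl⟩ := hfin.mem_toFinset.1 hR
      exact le_iSup F i
  rw [h2]; exact h1

/-- least member containing a set -/
theorem exists_least_mem [Finite P] (S : Set P) (Y₀ : Subgroup P) (hY₀ : Mem Y₀) (hS : S ⊆ Y₀) :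
    ∃ X : Subgroup P, Mem X ∧ S ⊆ X ∧ ∀ Y : Subgroup P, Mem Y → S ⊆ Y → X ≤ Y := by
  obtain ⟨X, ⟨hX1, hX2⟩, hmin⟩ := Set.exists_min_image
    {X : Subgroup P | Mem X ∧ S ⊆ X} (fun Q => Nat.card Q) (Set.toFinite _) ⟨Y₀, hY₀, hS⟩
  refine ⟨X, hX1, hX2, fun Y hY1 hY2 => ?_⟩
  have h1 := hmin (X ⊓ Y) ⟨hX1.inf hY1, fun x hx => ⟨hX2 hx, hY2 hx⟩⟩
  have h2 : X ⊓ Y = X := Subgroup.eq_of_le_of_card_ge inf_le_left h1
  exact inf_eq_left.1 h2

section pair

variable [Finite P] {A E : Subgroup P} (hA : A ∈ Cfsg.maxAbelianSubgroups P) (hE : Iso E)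
include hA hE

theorem iso_cl : Cfsg.IsCentrallyLarge (centralizer (E : Set P)) := by
  rw [H55.CL.isCentrallyLarge_iff]
  refine ⟨hE.1.centralizer, ?_⟩
  rw [hE.1.cc]; exact hE.2

theorem iso_coe_sup : ((E ⊔ A : Subgroup P) : Set P) = (E : Set P) * (A : Set P) := by
  have h := H55.LA.coe_center_sup (iso_cl hA hE) hA
  rwa [hE.1.cc] at h

theorem iso_card : Nat.card A * Nat.card (A ⊓ E : Subgroup P) =
    Nat.card (A ⊓ centralizer (E : Set P) : Subgroup P) * Nat.card E := by
  have h := (H55.LA.numeric (iso_cl hA hE) hA).2.2.1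
  rwa [hE.1.cc] at h

/-- the span of the `A`-conjugates of `E` -/
def span (A E : Subgroup P) : Subgroup P := ⨆ a : A, E.map (MulAut.conj (a : P)).toMonoidHom

omit [Finite P] hA hE in
theorem le_span : E ≤ span A E := by
  refine le_trans ?_ (le_iSup (fun a : A => E.map (MulAut.conj (a : P)).toMonoidHom) 1)
  intro x hx
  exact ⟨x, hx, by simp⟩

omit [Finite P] hA hE in
theorem conj_le_span (a : P) (ha : a ∈ A) : E.map (MulAut.conj a).toMonoidHom ≤ span A E :=
  le_iSup (fun a : A => E.map (MulAut.conj (a : P)).toMonoidHom) ⟨a, ha⟩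

omit [Finite P] hA hE in
theorem span_le : span A E ≤ E ⊔ A := by
  apply iSup_le
  rintro a _ ⟨x, hx, rfl⟩
  show (a : P) * x * (a : P)⁻¹ ∈ _
  exact mul_mem (mul_mem (mem_sup_right a.2) (mem_sup_left hx)) (inv_mem (mem_sup_right a.2))

omit hA in
theorem span_mem : Mem (span A E) := iSup_mem _ (fun _ => mem_map_conj hE.1 _)

theorem span_coe : ((span A E : Subgroup P) : Set P) =
    (E : Set P) * ((span A E ⊓ A : Subgroup P) : Set P) := by
  apply Set.Subset.antisymm
  · intro x hx
    have hx' : x ∈ ((E ⊔ A : Subgroup P) : Set P) := span_le hx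
    rw [iso_coe_sup hA hE] at hx'
    obtain ⟨e, he, a, ha, rfl⟩ := hx'
    refine ⟨e, he, a, ⟨?_, ha⟩, rfl⟩
    have h1 := mul_mem (inv_mem (le_span (A := A) he)) (show e * a ∈ span A E from hx)
    simpa using h1
  · rintro _ ⟨e, he, v, hv, rfl⟩
    exact mul_mem (le_span he) hv.1

theorem inter_mem : Mem (span A E ⊓ A) := by
  set F := span A E with hF
  set V := F ⊓ A with hV
  have hFm : Mem F := span_mem hE
  have hAc := H55.LA.self_centralizing hA
  -- |F| |E ∩ V| = |E| |V|
  have hsup : E ⊔ V = F := by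
    apply le_antisymm (sup_le le_span inf_le_left)
    intro x hx
    have hx' : x ∈ ((F : Subgroup P) : Set P) := hx
    rw [hF, span_coe hA hE] at hx'
    obtain ⟨e, he, v, hv, rfl⟩ := hx'
    exact mul_mem (mem_sup_left he) (mem_sup_right hv)
  have h1 : Nat.card F * Nat.card (A ⊓ E : Subgroup P) = Nat.card E * Nat.card V := by
    have h2 := card_sup_mul_card_inf_of_eq_mul E V (by rw [hsup, hF, span_coe hA hE])
    rw [hsup] at h2
    have h3 : E ⊓ V = A ⊓ E := by
      apply le_antisymm
      · exact le_inf (inf_le_right.trans inf_le_right) inf_le_left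
      · exact le_inf inf_le_right (le_inf (inf_le_right.trans le_span) inf_le_left)
    rwa [h3] at h2
  have h2 := iso_card hA hE
  -- C(V) ≥ C(F) ⊔ A
  have h3 : centralizer (F : Set P) ⊔ A ≤ centralizer (V : Set P) := by
    apply sup_le
    · exact Subgroup.centralizer_le (SetLike.coe_subset_coe.2 inf_le_left)
    · exact hAc.ge.trans (Subgroup.centralizer_le (SetLike.coe_subset_coe.2 inf_le_right))
  have h4 := card_mul_card_le (centralizer (F : Set P)) A
  have h5 : centralizer (F : Set P) ⊓ A ≤ A ⊓ centralizer (E : Set P) := by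
    refine le_inf inf_le_right (inf_le_left.trans ?_)
    exact Subgroup.centralizer_le (SetLike.coe_subset_coe.2 le_span)
  have h6 := Subgroup.card_le_of_le h5
  have h7 := Subgroup.card_le_of_le h3
  apply mem_of_le hFm
  unfold mu
  set f := Nat.card F
  set cf := Nat.card (centralizer (F : Set P))
  set v := Nat.card V
  set cv := Nat.card (centralizer (V : Set P))
  set a := Nat.card A
  set e := Nat.card E
  set i := Nat.card (A ⊓ E : Subgroup P)
  set k := Nat.card (A ⊓ centralizer (E : Set P) : Subgroup P)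
  have hk : 0 < k := Nat.card_pos
  have he : 0 < e := Nat.card_pos
  have ha : 0 < a := Nat.card_pos
  have hi : 0 < i := Nat.card_pos
  -- h1 : f * i = e * v; h2 : a * i = k * e; h4 : cf * a ≤ s * t, t ≤ k, s ≤ cv
  have h8 : cf * a ≤ cv * k := h4.trans (Nat.mul_le_mul h7 h6)
  -- f cf (i a) = e v cf a ≤ e v cv k = v cv (a i)
  have h9 : (f * cf) * (i * a) ≤ (v * cv) * (i * a) := by
    calc (f * cf) * (i * a) = (f * i) * (cf * a) := by ring
      _ = (e * v) * (cf * a) := by rw [h1]
      _ ≤ (e * v) * (cv * k) := Nat.mul_le_mul_left _ h8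
      _ = (v * cv) * (k * e) := by ring
      _ = (v * cv) * (i * a) := by rw [← h2]; ring
  exact Nat.le_of_mul_le_mul_right h9 (Nat.mul_pos hi ha)

end pair

/-- `W` is generated by large abelian subgroups -/
def Gen (W : Subgroup P) : Prop :=
  sSup {A : Subgroup P | A ∈ Cfsg.maxAbelianSubgroups P ∧ A ≤ W} = W

theorem gen_of_le (W : Subgroup P)
    (h : W ≤ sSup {A : Subgroup P | A ∈ Cfsg.maxAbelianSubgroups P ∧ A ≤ W}) : Gen W :=
  le_antisymm (sSup_le fun _ hA => hA.2) h

theorem gen_bot : Gen (⊥ : Subgroup P) := gen_of_le _ bot_le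

theorem conj_mem_normalizer_iff [Finite P] {N : Subgroup P} {w : P} :
    w ∈ normalizer (N : Set P) ↔ N.map (MulAut.conj w).toMonoidHom = N :=
  Subgroup.mem_normalizer_iff_map_conj_eq

/-- the main step -/
theorem step [Finite P] {p : ℕ} [Fact p.Prime] (hP : IsPGroup p P) :
    ∀ (n : ℕ) (W : Subgroup P), Nat.card W ≤ n → Gen W → ∀ N : Subgroup P, Iso N →
      W ≤ normalizer (N : Set P) → (∃ E₀ : Subgroup P, Iso E₀ ∧ N < E₀) →
      ∃ N' : Subgroup P, Iso N' ∧ N < N' ∧ W ≤ normalizer (N' : Set P) := by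
  intro n
  induction n with
  | zero =>
    intro W hW
    exact absurd hW (by have : 0 < Nat.card W := Nat.card_pos; omega)
  | succ n ih =>
    intro W hWn hWgen N hN hWN hex
    by_cases hWbot : W = ⊥
    · obtain ⟨E₀, h1, h2⟩ := hex
      exact ⟨E₀, h1, h2, by rw [hWbot]; exact bot_le⟩
    -- choose a maximal proper generated subgroup
    obtain ⟨W₀, ⟨hW₀gen, hW₀lt⟩, hW₀max⟩ := Set.exists_max_image
      {W₀ : Subgroup P | Gen W₀ ∧ W₀ < W} (fun Q => Nat.card Q) (Set.toFinite _)
      ⟨⊥, gen_bot, bot_lt_iff_ne_bot.2 hWbot⟩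
    have hmaxgen : ∀ K : Subgroup P, Gen K → W₀ ≤ K → K ≤ W → K ≠ W → K = W₀ := by
      intro K hK1 hK2 hK3 hK4
      exact (Subgroup.eq_of_le_of_card_ge hK2 (hW₀max K ⟨hK1, lt_of_le_of_ne hK3 hK4⟩)).symm
    -- W₀ is normalized by W
    have hW₀norm : W ≤ normalizer (W₀ : Set P) := by
      have hnil : Group.IsNilpotent W := (hP.to_subgroup W).isNilpotent
      have hnc : NormalizerCondition W := Group.normalizerCondition_of_isNilpotent
      have h1 : W₀.subgroupOf W ≠ ⊤ := by
        intro h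
        rw [Subgroup.subgroupOf_eq_top] at h
        exact absurd h (not_le_of_gt hW₀lt)
      obtain ⟨M, hM1, hM2⟩ := (eq_top_or_exists_le_coatom (W₀.subgroupOf W)).resolve_left h1
      have hMn : M.Normal := hnc.normal_of_coatom M hM1
      set M' : Subgroup P := M.map W.subtype with hM'
      have hM'W : M' ≤ W := Subgroup.map_subtype_le M
      have hW₀M' : W₀ ≤ M' := by
        intro x hx
        exact ⟨⟨x, hW₀lt.le hx⟩, hM2 (by simpa [Subgroup.mem_subgroupOf] using hx), rfl⟩
      have hM'ne : M' ≠ W := by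
        intro h
        apply hM1.1
        rw [eq_top_iff]
        rintro ⟨x, hx⟩ _
        rw [← h] at hx
        obtain ⟨y, hy, hyx⟩ := hx
        have : y = ⟨x, by rw [← h]; exact ⟨y, hy, hyx⟩⟩ := Subtype.ext hyx
        rwa [← this]
      set K : Subgroup P := sSup {A : Subgroup P | A ∈ Cfsg.maxAbelianSubgroups P ∧ A ≤ M'} with hK
      have hKM' : K ≤ M' := sSup_le fun _ hA => hA.2
      have hKgen : Gen K := by
        apply gen_of_le
        apply sSup_le
        intro A hA
        exact le_sSup ⟨hA.1, le_sSup hA⟩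
      have hW₀K : W₀ ≤ K := by
        rw [← hW₀gen]
        apply sSup_le
        intro A hA
        exact le_sSup ⟨hA.1, hA.2.trans hW₀M'⟩
      have hKW₀ : K = W₀ := hmaxgen K hKgen hW₀K (hKM'.trans hM'W) (fun h => hM'ne
        (le_antisymm hM'W (by rw [← h]; exact hKM')))
      rw [← hKW₀]
      intro w hw
      apply mem_normalizer_of_forall
      have h2 : K ≤ K.comap (MulAut.conj w).toMonoidHom := by
        conv_lhs => rw [hK]
        apply sSup_le
        rintro A ⟨hA1, hA2⟩
        rw [← Subgroup.map_le_iff_le_comap]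
        apply le_sSup
        refine ⟨maxAbelian_map_conj hA1 w, ?_⟩
        rintro _ ⟨x, hx, rfl⟩
        obtain ⟨y, hy, hyx⟩ := hA2 hx
        refine ⟨⟨w, hw⟩ * y * ⟨w, hw⟩⁻¹, hMn.conj_mem y hy _, ?_⟩
        rw [← hyx]; rfl
      exact fun x hx => h2 hx
    -- a large abelian subgroup of W outside W₀
    obtain ⟨A, hA, hAW, hAW₀⟩ : ∃ A ∈ Cfsg.maxAbelianSubgroups P, A ≤ W ∧ ¬ A ≤ W₀ := by
      by_contra hcon
      push Not at hcon
      have : W ≤ W₀ := by
        rw [← hWgen]
        exact sSup_le fun A hA => hcon A hA.1 hA.2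
      exact absurd this (not_le_of_gt hW₀lt)
    have hWsup : W₀ ⊔ A = W := by
      by_contra hne
      have h1 : Gen (W₀ ⊔ A) := by
        apply gen_of_le
        apply sup_le
        · nth_rewrite 1 [← hW₀gen]
          apply sSup_le
          intro B hB
          exact le_sSup ⟨hB.1, hB.2.trans le_sup_left⟩
        · exact le_sSup ⟨hA, le_sup_right⟩
      have h2 := hmaxgen _ h1 le_sup_left (sup_le hW₀lt.le hAW) hne
      exact hAW₀ (by rw [← h2]; exact le_sup_right)
    -- induction
    have hcard : Nat.card W₀ < Nat.card W := by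
      by_contra hge
      push Not at hge
      exact hW₀lt.ne (Subgroup.eq_of_le_of_card_ge hW₀lt.le hge)
    obtain ⟨N₁, hN₁1, hN₁2, hN₁3⟩ := ih W₀ (by omega) hW₀gen N hN (hW₀lt.le.trans hWN) hex
    obtain ⟨E, ⟨hE1, hE2, hE3⟩, hEmin⟩ := Set.exists_min_image
      {E : Subgroup P | Iso E ∧ N < E ∧ W₀ ≤ normalizer (E : Set P)} (fun Q => Nat.card Q)
      (Set.toFinite _) ⟨N₁, hN₁1, hN₁2, hN₁3⟩
    by_cases hAE : A ≤ normalizer (E : Set P)
    · exact ⟨E, hE1, hE2, by rw [← hWsup]; exact sup_le hE3 hAE⟩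
    -- dichotomy for conjugates of E
    have hconjnorm : ∀ a ∈ A, W₀ ≤ normalizer ((E.map (MulAut.conj a).toMonoidHom : Subgroup P) : Set P) := by
      intro a ha w hw
      apply mem_normalizer_of_forall
      rintro _ ⟨x, hx, rfl⟩
      -- w a x a⁻¹ w⁻¹ = a (a⁻¹ w a) x (a⁻¹ w a)⁻¹ a⁻¹
      have h1 : a⁻¹ * w * a ∈ W₀ := by
        have := (Subgroup.mem_normalizer_iff.1 (inv_mem (hW₀norm (hAW ha))) w).1 hw
        simpa using this
      have h2 : (a⁻¹ * w * a) * x * (a⁻¹ * w * a)⁻¹ ∈ E :=
        (Subgroup.mem_normalizer_iff.1 (hE3 h1) x).1 hx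
      refine ⟨_, h2, ?_⟩
      show a * ((a⁻¹ * w * a) * x * (a⁻¹ * w * a)⁻¹) * a⁻¹ = w * (a * x * a⁻¹) * w⁻¹
      group
    have hNconj : ∀ a ∈ A, N ≤ E.map (MulAut.conj a).toMonoidHom := by
      intro a ha
      have h1 : N.map (MulAut.conj a).toMonoidHom = N :=
        Subgroup.mem_normalizer_iff_map_conj_eq.1 (hWN (hAW ha))
      rw [← h1]
      exact Subgroup.map_mono hE2.le
    have hdich : ∀ a ∈ A, E ⊓ E.map (MulAut.conj a).toMonoidHom = N ∨
        E ≤ E.map (MulAut.conj a).toMonoidHom := by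
      intro a ha
      by_cases h : E ⊓ E.map (MulAut.conj a).toMonoidHom = N
      · exact Or.inl h
      · right
        have h1 : N < E ⊓ E.map (MulAut.conj a).toMonoidHom :=
          lt_of_le_of_ne (le_inf hE2.le (hNconj a ha)) (Ne.symm h)
        have h2 : Iso (E ⊓ E.map (MulAut.conj a).toMonoidHom) := by
          refine ⟨hE1.1.inf (mem_map_conj hE1.1 a), ?_⟩
          exact inf_le_left.trans (hE1.2.trans
            (Subgroup.centralizer_le (SetLike.coe_subset_coe.2 inf_le_left)))
        have h3 : W₀ ≤ normalizer ((E ⊓ E.map (MulAut.conj a).toMonoidHom : Subgroup P) : Set P) := by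
          intro w hw
          apply mem_normalizer_of_forall
          rintro x ⟨hx1, hx2⟩
          exact ⟨(Subgroup.mem_normalizer_iff.1 (hE3 hw) x).1 hx1,
            (Subgroup.mem_normalizer_iff.1 (hconjnorm a ha hw) x).1 hx2⟩
        have h4 := hEmin _ ⟨h2, h1, h3⟩
        have h5 : E ⊓ E.map (MulAut.conj a).toMonoidHom = E :=
          Subgroup.eq_of_le_of_card_ge inf_le_left h4
        exact inf_eq_left.1 h5
    set F : Subgroup P := span A E with hF
    have hNF : N < F := lt_of_lt_of_le hE2 le_span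
    have hWF : W ≤ normalizer (F : Set P) := by
      rw [← hWsup]
      apply sup_le
      · intro w hw
        apply mem_normalizer_of_forall
        have h2 : F ≤ F.comap (MulAut.conj w).toMonoidHom := by
          apply iSup_le
          rintro a _ ⟨x, hx, rfl⟩
          apply conj_le_span (a : P) a.2
          exact (Subgroup.mem_normalizer_iff.1 (hconjnorm a a.2 hw) _).1 ⟨x, hx, rfl⟩
        exact fun x hx => h2 hx
      · intro b hb
        apply mem_normalizer_of_forall
        have h2 : F ≤ F.comap (MulAut.conj b).toMonoidHom := by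
          apply iSup_le
          rintro a _ ⟨x, hx, rfl⟩
          apply conj_le_span (b * a) (mul_mem hb a.2)
          refine ⟨x, hx, ?_⟩
          show (b * a) * x * (b * a)⁻¹ = b * (a * x * (a : P)⁻¹) * b⁻¹
          group
        exact fun x hx => h2 hx
    have hFC : F ≤ centralizer (N : Set P) := by
      apply iSup_le
      intro a
      have h1 : N.map (MulAut.conj (a : P)).toMonoidHom = N :=
        Subgroup.mem_normalizer_iff_map_conj_eq.1 (hWN (hAW a.2))
      rw [← h1, centralizer_map_conj]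
      exact Subgroup.map_mono (hE1.2.trans
        (Subgroup.centralizer_le (SetLike.coe_subset_coe.2 hE2.le)))
    -- an element of F outside N centralized by W modulo N
    obtain ⟨x, hxF, hxN, hxW⟩ : ∃ x ∈ F, x ∉ N ∧ ∀ w ∈ W, x * w * x⁻¹ * w⁻¹ ∈ N := by
      set T : Subgroup P := F ⊔ W with hT
      have hTnil : Group.IsNilpotent T := (hP.to_subgroup T).isNilpotent
      have hFT : (F.subgroupOf T).Normal := by
        apply (Subgroup.normal_subgroupOf_iff_le_normalizer le_sup_left).2
        exact sup_le Subgroup.le_normalizer hWF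
      have h1 : ¬ (F.subgroupOf T ≤ N.subgroupOf T) := by
        intro h
        apply absurd hNF (not_lt_of_ge _)
        intro y hy
        have : (⟨y, mem_sup_left hy⟩ : T) ∈ N.subgroupOf T :=
          h (by simpa [Subgroup.mem_subgroupOf] using hy)
        simpa [Subgroup.mem_subgroupOf] using this
      obtain ⟨x, hx1, hx2, hx3⟩ := exists_commutator_mem (F.subgroupOf T) (N.subgroupOf T) h1
      refine ⟨x, by simpa [Subgroup.mem_subgroupOf] using hx1,
        fun h => hx2 (by simpa [Subgroup.mem_subgroupOf] using h), fun w hw => ?_⟩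
      have := hx3 ⟨w, mem_sup_right hw⟩
      simpa [Subgroup.mem_subgroupOf] using this
    have hx' : x ∈ ((F : Subgroup P) : Set P) := hxF
    rw [hF, span_coe hA hE1] at hx'
    obtain ⟨e, he, v, hv, rfl⟩ := hx'
    have heE : e ∈ E := he
    have hvA : v ∈ A := hv.2
    have hAab := H55.LA.comm_of_abelian hA.1
    -- e lies in all conjugates of E
    have heconj : ∀ a ∈ A, e ∈ E.map (MulAut.conj a).toMonoidHom := by
      intro a ha
      have ha' : a⁻¹ ∈ A := inv_mem ha
      have h1 := hxW a⁻¹ (hAW ha')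
      have h2 : v * a⁻¹ = a⁻¹ * v := Subgroup.mem_centralizer_iff.1 (hAab ha') v hvA
      have h3 : (e * v) * a⁻¹ * (e * v)⁻¹ * (a⁻¹)⁻¹ = e * a⁻¹ * e⁻¹ * a := by
        calc (e * v) * a⁻¹ * (e * v)⁻¹ * (a⁻¹)⁻¹ = e * (v * a⁻¹) * v⁻¹ * e⁻¹ * a := by group
          _ = e * a⁻¹ * e⁻¹ * a := by rw [h2]; group
      rw [h3] at h1
      -- a⁻¹ e⁻¹ a ∈ e⁻¹ N ⊆ E
      have h4 : a⁻¹ * e⁻¹ * a ∈ E := by
        have h5 : a⁻¹ * e⁻¹ * a = e⁻¹ * (e * a⁻¹ * e⁻¹ * a) := by group
        rw [h5]
        exact mul_mem (inv_mem heE) (hE2.le h1)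
      refine ⟨(a⁻¹ * e⁻¹ * a)⁻¹, inv_mem h4, ?_⟩
      show a * (a⁻¹ * e⁻¹ * a)⁻¹ * a⁻¹ = e
      group
    have heN : e ∈ N := by
      by_contra heN
      apply hAE
      intro a ha
      rcases hdich a ha with h | h
      · exact absurd (by rw [← h]; exact ⟨heE, heconj a ha⟩) heN
      · rw [Subgroup.mem_normalizer_iff_map_conj_eq]
        symm
        apply Subgroup.eq_of_le_of_card_ge h
        rw [Subgroup.card_map_of_injective (MulAut.conj a).injective]
    have hvN : v ∉ N := fun h => hxN (mul_mem heN h)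
    have hvW : ∀ w ∈ W, v * w * v⁻¹ * w⁻¹ ∈ N := by
      intro w hw
      have h1 := hxW w hw
      have h2 : v * w * v⁻¹ * w⁻¹ = e⁻¹ * ((e * v) * w * (e * v)⁻¹ * w⁻¹) * (w * e * w⁻¹) := by
        group
      rw [h2]
      exact mul_mem (mul_mem (inv_mem heN) h1) ((Subgroup.mem_normalizer_iff.1 (hWN hw) e).1 heN)
    -- the least member containing N and v
    have hVm : Mem (span A E ⊓ A) := inter_mem hA hE1
    have hNVab : N ⊔ (span A E ⊓ A) ≤ centralizer ((N ⊔ (span A E ⊓ A) : Subgroup P) : Set P) := by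
      apply H55.LA.sup_abelian hN.2
      · exact inf_le_right.trans (hAab.trans
          (Subgroup.centralizer_le (SetLike.coe_subset_coe.2 inf_le_right)))
      · rw [Subgroup.le_centralizer_iff]; exact inf_le_left.trans hFC
    obtain ⟨X, hX1, hX2, hX3⟩ := exists_least_mem ((N : Set P) ∪ {v}) (N ⊔ (span A E ⊓ A))
      (hN.1.sup hVm) (by
        rintro y (hy | hy)
        · exact mem_sup_left hy
        · rw [Set.mem_singleton_iff] at hy; rw [hy]; exact mem_sup_right hv)
    have hNX : N ≤ X := fun y hy => hX2 (Or.inl hy)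
    have hvX : v ∈ X := hX2 (Or.inr rfl)
    have hXle : X ≤ N ⊔ (span A E ⊓ A) := hX3 _ (hN.1.sup hVm) (by
        rintro y (hy | hy)
        · exact mem_sup_left hy
        · rw [Set.mem_singleton_iff] at hy; rw [hy]; exact mem_sup_right hv)
    refine ⟨X, ⟨hX1, ?_⟩, lt_of_le_of_ne hNX (fun h => hvN (by rw [h]; exact hvX)), ?_⟩
    · exact hXle.trans (hNVab.trans (Subgroup.centralizer_le (SetLike.coe_subset_coe.2 hXle)))
    · intro w hw
      rw [Subgroup.mem_normalizer_iff_map_conj_eq]
      symm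
      have h1 : X ≤ X.map (MulAut.conj w).toMonoidHom := by
        apply hX3 _ (mem_map_conj hX1 w)
        have hNw : N ≤ X.map (MulAut.conj w).toMonoidHom := by
          have h2 : N.map (MulAut.conj w).toMonoidHom = N :=
            Subgroup.mem_normalizer_iff_map_conj_eq.1 (hWN hw)
          rw [← h2]
          exact Subgroup.map_mono hNX
        rintro y (hy | hy)
        · exact hNw hy
        · rw [Set.mem_singleton_iff] at hy
          rw [hy]
          -- v = (v w v⁻¹ w⁻¹) * (w v w⁻¹)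
          have h3 : v = (v * w * v⁻¹ * w⁻¹) * (w * v * w⁻¹) := by group
          rw [h3]
          exact mul_mem (hNw (hvW w hw)) ⟨v, hvX, rfl⟩
      apply Subgroup.eq_of_le_of_card_ge h1
      rw [Subgroup.card_map_of_injective (MulAut.conj w).injective]

end H55.CLF
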