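import Mathlib
import Cfsg.Agent.Lib.H53.CharP
import Cfsg.Agent.Lib.H72.PGroupCenter
import Cfsg.Agent.Lib.H1.Cores

/-!
Characteristic `p`: isomorphism invariance, subnormal subgroups, centres of `p`-groups (ambient forms).
-/

set_option autoImplicit false

namespace H55.CharPSub

open Subgroup Cfsg H53.CharP

variable {G : Type*} [Group G]

/-- the intrinsic form of characteristic `p` is isomorphism invariant -/
theorem equiv {X Y : Type*} [Group X] [Group Y] {p : ℕ} (e : X ≃* Y)
    (h : centralizer (pCore p X : Set X) ≤ pCore p X) :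
    centralizer (pCore p Y : Set Y) ≤ pCore p Y := by
  have h1 := H1.Cores.map_equiv_pCore p e
  intro y hy
  have h2 : e.symm y ∈ centralizer (pCore p X : Set X) := by
    rw [mem_centralizer_iff]
    intro x hx
    have h3 : e x ∈ pCore p Y := by
      rw [← h1]; exact ⟨x, hx, rfl⟩
    have h4 := mem_centralizer_iff.mp hy (e x) h3
    apply e.injective
    simpa using h4
  have h5 := h h2
  rw [← h1]
  exact ⟨e.symm y, h5, by simp⟩

theorem of_map {G' : Type*} [Group G'] {p : ℕ} (f : G →* G') (hf : Function.Injective f)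
    {H : Subgroup G} (h : CP p (H.map f)) : CP p H := by
  rw [cp_iff] at h ⊢
  exact equiv (H.equivMapOfInjective f hf).symm h

theorem of_subnormal [Finite G] {p : ℕ} [Fact p.Prime] {N : Subgroup G} (hN : CP p N)
    (K : Subgroup N) (hK : K.IsSubnormal) : CP p (K.map N.subtype) := by
  induction hK with
  | top => rwa [← MonoidHom.range_eq_map, Subgroup.range_subtype]
  | step H K h_le _ hn ih =>
    apply ih.of_normal (Subgroup.map_mono h_le)
    rintro _ ⟨k, hk, rfl⟩
    rw [mem_normalizer_iff]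
    intro x
    constructor
    · rintro ⟨y, hy, rfl⟩
      refine ⟨k * y * k⁻¹, ?_, by simp⟩
      have := hn.conj_mem ⟨y, h_le hy⟩ (by rwa [Subgroup.mem_subgroupOf]) ⟨k, hk⟩
      simpa [Subgroup.mem_subgroupOf] using this
    · rintro ⟨y, hy, hyx⟩
      refine ⟨k⁻¹ * y * k, ?_, ?_⟩
      · have := hn.conj_mem ⟨y, h_le hy⟩ (by rwa [Subgroup.mem_subgroupOf]) (⟨k, hk⟩⁻¹ : K)
        simpa [Subgroup.mem_subgroupOf] using this
      · have : x = (k : G)⁻¹ * (k * x * (k : G)⁻¹) * k := by group
        rw [this, ← show N.subtype y = (k : G) * x * (k : G)⁻¹ from hyx]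
        simp

/-- a nontrivial normal subgroup of a `p`-group meets the centre (ambient form) -/
theorem exists_central [Finite G] {p : ℕ} [Fact p.Prime] {P N : Subgroup G} (hP : IsPGroup p P)
    (hNP : N ≤ P) (hn : P ≤ normalizer (N : Set G)) (hne : N ≠ ⊥) :
    ∃ z ∈ N, z ≠ 1 ∧ ∀ x ∈ P, x * z = z * x := by
  have h1 : (N.subgroupOf P).Normal := H53.Amb.subgroupOf_normal_of_le hn
  have h2 : N.subgroupOf P ≠ ⊥ := by
    intro h
    apply hne
    rw [eq_bot_iff]
    intro x hx
    have : (⟨x, hNP hx⟩ : P) ∈ N.subgroupOf P := by rwa [Subgroup.mem_subgroupOf]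
    rw [h, Subgroup.mem_bot] at this
    simpa [Subtype.ext_iff] using this
  have h3 := H72.PGroupCenter.normal_inf_center_ne_bot hP (N.subgroupOf P) h2
  obtain ⟨⟨⟨z, hzP⟩, hz⟩, hz1⟩ := Subgroup.ne_bot_iff_exists_ne_one.mp h3
  refine ⟨z, hz.1, fun h => hz1 (Subtype.ext (Subtype.ext h)), ?_⟩
  intro x hx
  have := Subgroup.mem_center_iff.mp hz.2 ⟨x, hx⟩
  simpa [Subtype.ext_iff] using this

end H55.CharPSub
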